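import Mathlib
import Cfsg.Agent.Lib.Alt.AltSylow
import Cfsg.Agent.Lib.GenStruct.Basic

/-!
Direct decompositions of the Sylow 2-subgroups of alternating groups: orbit sizes are the binary
digits of the degree, the centre of the even part, indecomposability, and the decomposition.
-/

set_option autoImplicit false
set_option linter.unusedSectionVars false

open Equiv MulAction

namespace Cfsg.Agent.Lib.Alt.Decomp

variable {Ω : Type*} [Fintype Ω] [DecidableEq Ω]
variable (P : Sylow 2 (Perm Ω))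

/-- The exponent of the orbit size of a point. -/
noncomputable def oexp (x : Ω) : ℕ := Nat.log 2 (orb P x).ncard

theorem ncard_orb_eq (x : Ω) : (orb P x).ncard = 2 ^ oexp P x := by
  obtain ⟨k, hk⟩ := exists_ncard_orb P x
  rw [oexp, hk, Nat.log_pow (by norm_num)]

theorem oexp_eq_iff {x y : Ω} : oexp P x = oexp P y ↔ y ∈ orb P x := by
  refine ⟨fun h => orb_size_injective P (by rw [ncard_orb_eq, ncard_orb_eq, h]), fun h => ?_⟩
  rw [oexp, oexp, orb_eq_of_mem P h]

/-- The orbit sizes are the binary digits of the degree. -/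
theorem exists_oexp_iff (e : ℕ) : (∃ x, oexp P x = e) ↔ (Fintype.card Ω).testBit e = true := by
  classical
  have h : Fintype.card Ω = ∑ e ∈ Finset.univ.image (oexp P), 2 ^ e := by
    rw [← Finset.card_univ, Finset.card_eq_sum_card_image (oexp P) Finset.univ]
    refine Finset.sum_congr rfl fun e he => ?_
    obtain ⟨x, -, rfl⟩ := Finset.mem_image.mp he
    rw [← ncard_orb_eq P x, Set.ncard_eq_toFinset_card']
    congr 1
    ext y
    simp only [Finset.mem_filter, Finset.mem_univ, true_and, Set.mem_toFinset]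
    rw [eq_comm, oexp_eq_iff]
  rw [h, ← Nat.mem_bitIndices, ← List.mem_toFinset, Finset.toFinset_bitIndices_sum_two_pow]
  simp

theorem testBit_one (n : ℕ) : n.testBit 1 = true ↔ n % 4 = 2 ∨ n % 4 = 3 := by
  rw [Nat.testBit_eq_decide_div_mod_eq]
  simp only [pow_one, decide_eq_true_eq]
  omega

theorem testBit_high {n r e : ℕ} (h : 4 * (n / 4) = 2 ^ r) (he : 2 ≤ e)
    (hb : n.testBit e = true) : e = r := by
  obtain ⟨f, rfl⟩ := Nat.exists_eq_add_of_le' he
  have h1 : (n / 4).testBit f = true := by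
    rw [show (4 : ℕ) = 2 ^ 2 from rfl, ← Nat.shiftRight_eq_div_pow, Nat.testBit_shiftRight,
      add_comm]
    exact hb
  have h2 := Nat.testBit_two_pow_mul (i := 2) (a := n / 4) (j := f + 2)
  rw [show (2 : ℕ) ^ 2 = 4 from rfl, h, Nat.testBit_two_pow] at h2
  simp [h1] at h2
  exact h2.symm

theorem exists_two_high {n : ℕ} (hn : 4 ≤ n) (h : ∀ r, 4 * (n / 4) ≠ 2 ^ r) :
    ∃ e f, 2 ≤ e ∧ 2 ≤ f ∧ e ≠ f ∧ n.testBit e = true ∧ n.testBit f = true := by
  have hk : n / 4 ≠ 0 := by omega
  obtain ⟨e, he⟩ := Nat.exists_testBit_of_ne_zero hk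
  by_contra hcon
  push Not at hcon
  refine h (e + 2) ?_
  have h4 : n / 4 = 2 ^ e := by
    apply Nat.eq_of_testBit_eq
    intro f
    have hsh : ∀ j, (n / 4).testBit j = n.testBit (j + 2) := fun j => by
      rw [show (4 : ℕ) = 2 ^ 2 from rfl, ← Nat.shiftRight_eq_div_pow, Nat.testBit_shiftRight,
        add_comm]
    rw [Nat.testBit_two_pow]
    by_cases hef : e = f
    · subst hef; simp [he]
    · simp only [decide_eq_false hef]
      rw [hsh, Bool.eq_false_iff]
      exact fun hb => hcon (e + 2) (f + 2) (by omega) (by omega) (by omega) (by rw [← hsh]; exact he) hb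
  rw [h4, pow_add]; ring

/-! ### Restriction to invariant sets -/

open Classical in
/-- `g` on `U`, the identity outside (for `U` invariant under `g`). -/
noncomputable def rst (g : Perm Ω) (U : Set Ω) : Perm Ω :=
  if h : ∀ y, g y ∈ U ↔ y ∈ U then Perm.ofSubtype (g.subtypePerm (p := fun y => y ∈ U) h) else 1

/-- `U` is invariant under `P`. -/
def InvSet (U : Set Ω) : Prop := ∀ g ∈ P, ∀ y, g y ∈ U ↔ y ∈ U

theorem rst_of_mem {g : Perm Ω} {U : Set Ω} (h : ∀ y, g y ∈ U ↔ y ∈ U) {y : Ω} (hy : y ∈ U) :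
    rst g U y = g y := by
  classical
  rw [rst, dif_pos h, Perm.ofSubtype_apply_of_mem _ hy]; rfl

theorem rst_of_not_mem (g : Perm Ω) {U : Set Ω} {y : Ω} (hy : y ∉ U) : rst g U y = y := by
  classical
  rw [rst]
  split_ifs with h
  · rw [Perm.ofSubtype_apply_of_not_mem _ hy]
  · rfl

theorem invSet_orb (x : Ω) : InvSet P (orb P x) := fun _ hg _ => apply_mem_orb P hg

theorem rst_mul {g h : Perm Ω} {U : Set Ω} (hg : ∀ y, g y ∈ U ↔ y ∈ U)
    (hh : ∀ y, h y ∈ U ↔ y ∈ U) : rst (g * h) U = rst g U * rst h U := by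
  have hgh : ∀ y, (g * h) y ∈ U ↔ y ∈ U := fun y => by rw [Perm.mul_apply, hg, hh]
  ext y
  by_cases hy : y ∈ U
  · rw [rst_of_mem hgh hy, Perm.mul_apply, Perm.mul_apply, rst_of_mem hh hy,
      rst_of_mem hg ((hh y).2 hy)]
  · rw [rst_of_not_mem _ hy, Perm.mul_apply, rst_of_not_mem h hy, rst_of_not_mem g hy]

theorem rst_orb_mem {g : Perm Ω} (hg : g ∈ P) (x : Ω) : rst g (orb P x) ∈ P := by
  obtain ⟨q, hq, h1, h2⟩ := exists_restrict P x hg
  have : rst g (orb P x) = q := by
    ext y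
    by_cases hy : y ∈ orb P x
    · rw [rst_of_mem (invSet_orb P x g hg) hy, h1 y hy]
    · rw [rst_of_not_mem _ hy, h2 y hy]
  rwa [this]

theorem rst_mul_compl {g : Perm Ω} {U : Set Ω} (hU : ∀ y, g y ∈ U ↔ y ∈ U) :
    rst g U * rst g Uᶜ = g := by
  have hc : ∀ y, g y ∈ Uᶜ ↔ y ∈ Uᶜ := fun y => not_congr (hU y)
  ext y
  rw [Perm.mul_apply]
  by_cases hy : y ∈ U
  · rw [rst_of_not_mem g (U := Uᶜ) (not_not.2 hy), rst_of_mem hU hy]
  · rw [rst_of_mem hc hy, rst_of_not_mem g (show g y ∉ U from fun h => hy ((hU y).1 h))]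

/-- Orbitwise criterion for the restriction to lie in a subgroup. -/
theorem rst_mem_of_orbitwise (H : Subgroup (Perm Ω)) {g : Perm Ω} (hg : g ∈ P) :
    ∀ U : Set Ω, InvSet P U → (∀ a ∈ U, rst g (orb P a) ∈ H) → rst g U ∈ H := by
  intro U
  induction h : U.ncard using Nat.strong_induction_on generalizing U with
  | _ N ih =>
    intro hU hH
    rcases U.eq_empty_or_nonempty with rfl | ⟨a, ha⟩
    · have : rst g (∅ : Set Ω) = 1 := Equiv.ext fun y => rst_of_not_mem _ (Set.notMem_empty y)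
      rw [this]; exact H.one_mem
    have hsub : orb P a ⊆ U := by rintro y ⟨p, hp, rfl⟩; exact (hU p hp a).2 ha
    have hdiff : InvSet P (U \ orb P a) := fun p hp y => by
      simp only [Set.mem_sdiff, hU p hp, apply_mem_orb P hp]
    have hlt : (U \ orb P a).ncard < N := by
      rw [← h]
      exact Set.ncard_lt_ncard ⟨Set.sdiff_subset, fun hs => (hs ha).2 (self_mem_orb P a)⟩
    have heq : rst g U = rst g (orb P a) * rst g (U \ orb P a) := by
      ext y
      rw [Perm.mul_apply]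
      by_cases hy : y ∈ orb P a
      · rw [rst_of_not_mem g (U := U \ orb P a) (fun h => h.2 hy),
          rst_of_mem (invSet_orb P a g hg) hy, rst_of_mem (hU g hg) (hsub hy)]
      · by_cases hyU : y ∈ U
        · rw [rst_of_mem (hU g hg) hyU, rst_of_mem (hdiff g hg) ⟨hyU, hy⟩,
            rst_of_not_mem g (fun h => hy ((apply_mem_orb P hg).1 h))]
        · rw [rst_of_not_mem g hyU, rst_of_not_mem g (U := U \ orb P a) (fun h => hyU h.1),
            rst_of_not_mem g hy]
    rw [heq]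
    exact H.mul_mem (hH a ha) (ih _ hlt _ rfl hdiff fun b hb => hH b hb.1)

theorem mem_of_orbitwise (H : Subgroup (Perm Ω)) {g : Perm Ω} (hg : g ∈ P)
    (hH : ∀ a, rst g (orb P a) ∈ H) : g ∈ H := by
  have h := rst_mem_of_orbitwise P H hg Set.univ (fun _ _ _ => by simp) fun a _ => hH a
  have e : rst g Set.univ = g := Equiv.ext fun y => rst_of_mem (fun _ => by simp) (Set.mem_univ y)
  rwa [e] at h

/-! ### Central involutions and their parity -/

theorem zorb_even {z : Perm Ω} {a : Ω} (h4 : 2 ≤ oexp P a) (hzz : z * z = 1)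
    (hne : ∀ y ∈ orb P a, z y ≠ y) (hfix : ∀ y ∉ orb P a, z y = y) : Perm.sign z = 1 := by
  classical
  have hsupp : z.support.card = 2 ^ oexp P a := by
    rw [← ncard_orb_eq P a, Set.ncard_eq_toFinset_card']
    congr 1
    ext y
    simp only [Perm.mem_support, Set.mem_toFinset]
    exact ⟨fun h => by_contra fun hn => h (hfix y hn), hne y⟩
  have ho : orderOf z ∣ 2 := orderOf_dvd_of_pow_eq_one (by rw [pow_two, hzz])
  have hall : ∀ x ∈ z.cycleType, x = 2 := fun x hx => by
    have h1 := (Perm.dvd_of_mem_cycleType hx).trans ho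
    have h2 := Perm.two_le_of_mem_cycleType hx
    have := Nat.le_of_dvd (by norm_num) h1
    omega
  have hrep := Multiset.eq_replicate_card.2 hall
  have hsum := Perm.sum_cycleType z
  rw [hrep, Multiset.sum_replicate, hsupp, smul_eq_mul] at hsum
  rw [Perm.sign_of_cycleType, hrep, Multiset.sum_replicate, Multiset.card_replicate, smul_eq_mul,
    hsum]
  obtain ⟨f, hf⟩ := Nat.exists_eq_add_of_le' h4
  rw [hf, pow_add] at hsum
  refine Even.neg_one_pow ?_
  rw [hf, pow_add]
  exact ⟨2 ^ f * 2 + 2 ^ f, by omega⟩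

theorem moved_of_big {a : Ω} (h : 1 ≤ oexp P a) : Moved P a := by
  by_contra hm
  have := ncard_orb_eq P a
  rw [orb_of_not_moved P hm, Set.ncard_singleton] at this
  have := Nat.one_lt_two_pow (n := oexp P a) (by omega)
  omega

theorem swap_partner {z : Perm Ω} (hzz : z * z = 1)
    (hc : ∀ p ∈ P, p * z = z * p) {x y : Ω} (hy : y ≠ x) (hs : Equiv.swap x y ∈ P)
    (hzx : z x ≠ x) : y = z x :=
  swap_unique P hy hzx hs (swap_apply_mem P hzz hc x)

/-- An element of the even part of `P` mapping `x` to a given point of its orbit. -/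
theorem exists_even_move (hn : 6 ≤ Fintype.card Ω) {x y : Ω} (hy : y ∈ orb P x) :
    ∃ q ∈ P, Perm.sign q = 1 ∧ q x = y := by
  obtain ⟨p, hp, rfl⟩ := hy
  by_cases hm : Moved P x
  · obtain ⟨u, hu, hsu⟩ := exists_swap_mem P hm
    obtain ⟨a, b, hab, hsab, ha, hb⟩ := exists_pair_avoiding P {x, u}
      (by have := Finset.card_le_two (a := x) (b := u); omega) (pair_closed P hu hsu)
    simp only [Finset.mem_insert, Finset.mem_singleton, not_or] at ha hb
    rcases Int.units_eq_one_or (Perm.sign p) with h | h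
    · exact ⟨p, hp, h, rfl⟩
    · refine ⟨p * Equiv.swap a b, P.mul_mem hp hsab, ?_, ?_⟩
      · rw [map_mul, h, Perm.sign_swap hab.symm]; rfl
      · rw [Perm.mul_apply, Equiv.swap_apply_of_ne_of_ne (Ne.symm ha.1) (Ne.symm hb.1)]
  · exact ⟨1, P.one_mem, map_one _, by
      by_contra h; exact hm ⟨p, hp, fun h' => h h'.symm⟩⟩

/-- An element commuting with the even part of `P` is trivial or the central involution on each
orbit. -/
theorem centre_on_orbit (hn : 6 ≤ Fintype.card Ω) {c : Perm Ω}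
    (hc : ∀ s ∈ P, Perm.sign s = 1 → s * c = c * s) {a : Ω} {z : Perm Ω} (hzz : z * z = 1)
    (hzc : ∀ p ∈ P, p * z = z * p) (hza : z a ≠ a) :
    (∀ y ∈ orb P a, c y = y) ∨ (∀ y ∈ orb P a, c y = z y) := by
  have hs := swap_apply_mem P hzz hzc a
  have key := central_pair P hn (fun s hs h => hc s hs (Perm.mem_alternatingGroup.1 h)) hza hs
  rcases key with h | h
  · left
    intro y hy
    obtain ⟨q, hq, hq1, rfl⟩ := exists_even_move P hn hy
    have := congrFun (congrArg DFunLike.coe (hc q hq hq1)) a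
    simp only [Perm.mul_apply, h] at this
    exact this.symm
  · right
    intro y hy
    obtain ⟨q, hq, hq1, rfl⟩ := exists_even_move P hn hy
    have h1 := congrFun (congrArg DFunLike.coe (hc q hq hq1)) a
    have h2 := congrFun (congrArg DFunLike.coe (hzc q hq)) a
    simp only [Perm.mul_apply, h] at h1 h2
    rw [← h1, h2]

/-! ### The main criterion -/

variable (S₁ S₂ : Subgroup (Perm Ω))

/-- `S₁`, `S₂` decompose the even part of `P`. -/
structure IsDec : Prop where
  le₁ : S₁ ≤ (P : Subgroup (Perm Ω)) ⊓ alternatingGroup Ω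
  le₂ : S₂ ≤ (P : Subgroup (Perm Ω)) ⊓ alternatingGroup Ω
  comm : ∀ a ∈ S₁, ∀ b ∈ S₂, a * b = b * a
  disj : S₁ ⊓ S₂ = ⊥
  mem : ∀ g ∈ P, Perm.sign g = 1 → ∃ a ∈ S₁, ∃ b ∈ S₂, a * b = g

variable {P S₁ S₂}

theorem IsDec.symm (h : IsDec P S₁ S₂) : IsDec P S₂ S₁ where
  le₁ := h.le₂
  le₂ := h.le₁
  comm a ha b hb := (h.comm b hb a ha).symm
  disj := by rw [inf_comm]; exact h.disj
  mem g hg hs := by
    obtain ⟨a, ha, b, hb, rfl⟩ := h.mem g hg hs
    exact ⟨b, hb, a, ha, (h.comm a ha b hb).symm⟩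

theorem IsDec.conj_mem (h : IsDec P S₁ S₂) {g s : Perm Ω} (hg : g ∈ P) (hg1 : Perm.sign g = 1)
    (hs : s ∈ S₁) : g * s * g⁻¹ ∈ S₁ := by
  obtain ⟨a, ha, b, hb, rfl⟩ := h.mem g hg hg1
  have : a * b * s * (a * b)⁻¹ = a * s * a⁻¹ := by
    rw [mul_inv_rev, mul_assoc a b s, ← h.comm s hs b hb]; group
  rw [this]
  exact S₁.mul_mem (S₁.mul_mem ha hs) (S₁.inv_mem ha)

/-- A nontrivial factor contains a nontrivial element commuting with the even part of `P`. -/
theorem IsDec.exists_central_mem (h : IsDec P S₁ S₂) (hne : S₁ ≠ ⊥) :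
    ∃ c ∈ S₁, c ≠ 1 ∧ ∀ s ∈ P, Perm.sign s = 1 → s * c = c * s := by
  haveI : Fact (Nat.Prime 2) := ⟨Nat.prime_two⟩
  haveI : Nontrivial S₁ := (Subgroup.nontrivial_iff_ne_bot S₁).2 hne
  have hp : IsPGroup 2 S₁ := P.isPGroup'.to_le (h.le₁.trans inf_le_left)
  haveI := hp.center_nontrivial
  obtain ⟨⟨⟨c, hc⟩, hcc⟩, hc1⟩ := exists_ne (1 : Subgroup.center S₁)
  refine ⟨c, hc, fun h0 => hc1 (Subtype.ext (Subtype.ext h0)), fun s hs hs1 => ?_⟩
  obtain ⟨a, ha, b, hb, rfl⟩ := h.mem s hs hs1
  have h1 : a * c = c * a := congrArg Subtype.val (Subgroup.mem_center_iff.1 hcc ⟨a, ha⟩)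
  rw [mul_assoc, ← h.comm c hc b hb, ← mul_assoc, h1, mul_assoc]

variable (P)

/-- The even elements of `P` supported on the orbit of `a`. -/
def Aset (a : Ω) : Set (Perm Ω) :=
  {q | q ∈ P ∧ Perm.sign q = 1 ∧ ∀ y ∉ orb P a, q y = y}

variable {P}

theorem Aset_conj {a : Ω} {g q : Perm Ω} (hg : g ∈ P) (hq : q ∈ Aset P a) :
    g * q * g⁻¹ ∈ Aset P a := by
  refine ⟨P.mul_mem (P.mul_mem hg hq.1) (P.inv_mem hg), by simp [hq.2.1], fun y hy => ?_⟩
  rw [Perm.mul_apply, Perm.mul_apply,
    hq.2.2 _ (fun h => hy ((apply_mem_orb P (P.inv_mem hg)).1 h))]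
  simp

theorem Aset_inv {a : Ω} {q : Perm Ω} (hq : q ∈ Aset P a) : q⁻¹ ∈ Aset P a := by
  refine ⟨P.inv_mem hq.1, by simp [hq.2.1], fun y hy => ?_⟩
  conv_lhs => rw [← hq.2.2 y hy]
  simp

theorem Aset_mul {a : Ω} {q r : Perm Ω} (hq : q ∈ Aset P a) (hr : r ∈ Aset P a) :
    q * r ∈ Aset P a :=
  ⟨P.mul_mem hq.1 hr.1, by simp [hq.2.1, hr.2.1], fun y hy => by
    rw [Perm.mul_apply, hr.2.2 y hy, hq.2.2 y hy]⟩

/-- The factor that meets `Aset P a` trivially centralises it. -/
theorem commutes_of_not_meet (h : IsDec P S₁ S₂) {a : Ω}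
    (hno : ∀ q ∈ Aset P a, q ∈ S₂ → q = 1) :
    ∀ q ∈ Aset P a, ∀ s ∈ S₂, q * s = s * q := by
  intro q hq s hs
  have hsP : s ∈ P := (h.le₂ hs).1
  have h1 : q * s * q⁻¹ * s⁻¹ ∈ S₂ :=
    S₂.mul_mem (h.symm.conj_mem hq.1 hq.2.1 hs) (S₂.inv_mem hs)
  have h2 : q * s * q⁻¹ * s⁻¹ ∈ Aset P a := by
    have := Aset_mul hq (Aset_conj hsP (Aset_inv hq))
    simpa [mul_assoc] using this
  have h3 := hno _ h2 h1
  rwa [mul_inv_eq_one, mul_inv_eq_iff_eq_mul] at h3

variable (P)

/-- An even element on a big orbit not commuting with the whole even part. -/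
theorem exists_noncentral (hn : 6 ≤ Fintype.card Ω) {a : Ω} (ha : 2 ≤ oexp P a) :
    ∃ q ∈ Aset P a, ¬ ∀ s ∈ P, Perm.sign s = 1 → s * q = q * s := by
  classical
  obtain ⟨z, hz, hzz, hzc, hne, hfix⟩ := exists_central P (moved_of_big P (by omega : 1 ≤ oexp P a))
  have hza := hne a (self_mem_orb P a)
  obtain ⟨u, hu, hua, huz⟩ : ∃ u ∈ orb P a, u ≠ a ∧ u ≠ z a := by
    by_contra hcon
    push Not at hcon
    have hsub : orb P a ⊆ {a, z a} := fun u hu => by
      by_cases h : u = a
      · exact Or.inl h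
      · exact Or.inr (hcon u hu h)
    have h1 := (Set.ncard_le_ncard hsub (Set.toFinite _)).trans (Set.ncard_insert_le _ _)
    rw [ncard_orb_eq, Set.ncard_singleton] at h1
    have : 2 ^ 2 ≤ 2 ^ oexp P a := Nat.pow_le_pow_right (by norm_num) ha
    omega
  obtain ⟨p, hp, hpu⟩ := hu
  obtain ⟨q, hq, hq1, hq2⟩ := exists_restrict P a hp
  have hqa : q a = u := by rw [hq1 a (self_mem_orb P a), hpu]
  have hs := swap_apply_mem P hzz hzc a
  obtain ⟨r, hr, hra⟩ : ∃ r ∈ Aset P a, r a ≠ a ∧ r a ≠ z a := by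
    rcases Int.units_eq_one_or (Perm.sign q) with h | h
    · exact ⟨q, ⟨hq, h, hq2⟩, by rw [hqa]; exact hua, by rw [hqa]; exact huz⟩
    · refine ⟨q * Equiv.swap a (z a), ⟨P.mul_mem hq hs, ?_, fun y hy => ?_⟩, ?_⟩
      · rw [map_mul, h, Perm.sign_swap hza.symm]; rfl
      · rw [Perm.mul_apply, Equiv.swap_apply_of_ne_of_ne, hq2 y hy]
        · rintro rfl; exact hy (self_mem_orb P y)
        · rintro rfl
          exact hy ((apply_mem_orb P hz).2 (self_mem_orb P a))
      · rw [Perm.mul_apply, Equiv.swap_apply_left]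
        have h2 := congrFun (congrArg DFunLike.coe (hzc q hq)) a
        simp only [Perm.mul_apply] at h2
        rw [h2, hqa]
        refine ⟨fun h' => huz ?_, fun h' => hua (z.injective h')⟩
        have h3 := congrFun (congrArg DFunLike.coe hzz) u
        simp only [Perm.mul_apply, Perm.one_apply, h'] at h3
        exact h3.symm
  refine ⟨r, hr, fun hcen => ?_⟩
  rcases centre_on_orbit P hn hcen hzz hzc hza with h | h
  · exact hra.1 (h a (self_mem_orb P a))
  · exact hra.2 (h a (self_mem_orb P a))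

variable {P}

/-- A factor meeting the even elements of a big orbit contains the central involution there. -/
theorem mem_of_meet (hn : 6 ≤ Fintype.card Ω) (h : IsDec P S₁ S₂) {a : Ω}
    (hm : ¬ ∀ q ∈ Aset P a, q ∈ S₁ → q = 1) {z : Perm Ω} (hzz : z * z = 1)
    (hzc : ∀ p ∈ P, p * z = z * p) (hne : ∀ y ∈ orb P a, z y ≠ y)
    (hfix : ∀ y ∉ orb P a, z y = y) : z ∈ S₁ := by
  haveI : Fact (Nat.Prime 2) := ⟨Nat.prime_two⟩
  push Not at hm
  obtain ⟨q', hq', hq'1, hne'⟩ := hm
  let Q : Subgroup (Perm Ω) := (P : Subgroup (Perm Ω)) ⊓ alternatingGroup Ω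
  let N : Subgroup Q :=
    { carrier := {x | (x : Perm Ω) ∈ Aset P a ∧ (x : Perm Ω) ∈ S₁}
      one_mem' := ⟨⟨P.one_mem, map_one _, fun _ _ => rfl⟩, S₁.one_mem⟩
      mul_mem' := fun hx hy => ⟨Aset_mul hx.1 hy.1, S₁.mul_mem hx.2 hy.2⟩
      inv_mem' := fun hx => ⟨Aset_inv hx.1, S₁.inv_mem hx.2⟩ }
  haveI : N.Normal := ⟨fun x hx g => ⟨Aset_conj g.2.1 hx.1,
    h.conj_mem g.2.1 (Perm.mem_alternatingGroup.1 g.2.2) hx.2⟩⟩
  have hQ : IsPGroup 2 Q := P.isPGroup'.to_le inf_le_left
  obtain ⟨⟨c, hc⟩, hcN, hcc', hc1⟩ := GenStruct.exists_mem_center hQ N (fun hb => hne' (by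
    have : (⟨q', hq'.1, Perm.mem_alternatingGroup.2 hq'.2.1⟩ : Q) ∈ N := ⟨hq', hq'1⟩
    rw [hb, Subgroup.mem_bot] at this
    exact congrArg Subtype.val this))
  have hcc : ∀ s ∈ P, Perm.sign s = 1 → s * c = c * s := fun s hs hs1 =>
    congrArg Subtype.val (Subgroup.mem_center_iff.1 hcc' ⟨s, hs, Perm.mem_alternatingGroup.2 hs1⟩)
  rcases centre_on_orbit P hn hcc hzz hzc (hne a (self_mem_orb P a)) with h1 | h1
  · exfalso; apply hc1; apply Subtype.ext
    ext y
    by_cases hy : y ∈ orb P a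
    · exact h1 y hy
    · exact hcN.1.2.2 y hy
  · have : z = c := by
      ext y
      by_cases hy : y ∈ orb P a
      · exact (h1 y hy).symm
      · rw [hfix y hy]; exact (hcN.1.2.2 y hy).symm
    rw [this]; exact hcN.2

theorem side (hn : 6 ≤ Fintype.card Ω) (h : IsDec P S₁ S₂) {a : Ω} (ha : 2 ≤ oexp P a)
    (hno : ∀ q ∈ Aset P a, q ∈ S₂ → q = 1) {z : Perm Ω} (hzz : z * z = 1)
    (hzc : ∀ p ∈ P, p * z = z * p) (hne : ∀ y ∈ orb P a, z y ≠ y)
    (hfix : ∀ y ∉ orb P a, z y = y) : z ∈ S₁ := by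
  obtain ⟨q, hq, hnc⟩ := exists_noncentral P hn ha
  refine mem_of_meet hn h (fun hcon => hnc fun s hs hs1 => ?_) hzz hzc hne hfix
  obtain ⟨x, hx, y, hy, rfl⟩ := h.mem s hs hs1
  rw [mul_assoc, ← commutes_of_not_meet h hno q hq y hy, ← mul_assoc,
    ← commutes_of_not_meet h.symm hcon q hq x hx, mul_assoc]

theorem side_or (hn : 6 ≤ Fintype.card Ω) (h : IsDec P S₁ S₂) {a : Ω} (ha : 2 ≤ oexp P a) :
    (∀ q ∈ Aset P a, q ∈ S₂ → q = 1) ∨ (∀ q ∈ Aset P a, q ∈ S₁ → q = 1) := by
  by_contra hcon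
  rw [not_or] at hcon
  obtain ⟨z, -, hzz, hzc, hne, hfix⟩ := exists_central P (moved_of_big P (by omega : 1 ≤ oexp P a))
  have hz1 : z = 1 := by
    rw [← Subgroup.mem_bot, ← h.disj]
    exact ⟨mem_of_meet hn h hcon.2 hzz hzc hne hfix, mem_of_meet hn h.symm hcon.1 hzz hzc hne hfix⟩
  exact hne a (self_mem_orb P a) (by rw [hz1]; rfl)

/-- Indecomposable when a single orbit has size at least four. -/
theorem not_dec_single (hn : 6 ≤ Fintype.card Ω) {a : Ω} (ha : 2 ≤ oexp P a)
    (honly : ∀ x, 2 ≤ oexp P x → oexp P x = oexp P a) (h : IsDec P S₁ S₂) :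
    S₁ = ⊥ ∨ S₂ = ⊥ := by
  by_contra hcon
  push Not at hcon
  obtain ⟨z, hz, hzz, hzc, hne, hfix⟩ := exists_central P (moved_of_big P (by omega : 1 ≤ oexp P a))
  -- every central element is `1` or `z`
  have key : ∀ c, c ∈ P → Perm.sign c = 1 → (∀ s ∈ P, Perm.sign s = 1 → s * c = c * s) →
      c = 1 ∨ c = z := by
    intro c hcP hc1 hcc
    have : ∀ c : Perm Ω, c ∈ P → Perm.sign c = 1 → (∀ y ∈ orb P a, c y = y) → c = 1 := by
      intro c hcP hc1 hfa
      by_contra hne1
      obtain ⟨x, hx⟩ : ∃ x, c x ≠ x := by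
        by_contra hx; push Not at hx; exact hne1 (Equiv.ext hx)
      have hxa : x ∉ orb P a := fun hxa => hx (hfa x hxa)
      have hmv : Moved P x := ⟨c, hcP, hx⟩
      have hx1 : oexp P x = 1 := by
        have h1 : ¬ 2 ≤ oexp P x := fun h2 =>
          hxa ((oexp_eq_iff P).1 (honly x h2).symm)
        have := two_le_ncard_orb P hmv
        rw [ncard_orb_eq] at this
        rcases Nat.eq_zero_or_pos (oexp P x) with h0 | h0
        · rw [h0] at this; simp at this
        · omega
      have hcs : c = Equiv.swap x (c x) := by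
        have horb : orb P x = {x, c x} := by
          refine (Set.eq_of_subset_of_ncard_le ?_ ?_ (Set.toFinite _)).symm
          · rintro y (rfl | rfl)
            · exact self_mem_orb P _
            · exact ⟨c, hcP, rfl⟩
          · rw [ncard_orb_eq, hx1, Set.ncard_pair (Ne.symm hx)]; norm_num
        ext y
        by_cases hyx : y = x
        · subst hyx; rw [Equiv.swap_apply_left]
        by_cases hycx : y = c x
        · subst hycx
          rw [Equiv.swap_apply_right]
          have hm : c (c x) ∈ orb P x := (apply_mem_orb P hcP).2 ⟨c, hcP, rfl⟩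
          rw [horb] at hm
          rcases hm with h' | h'
          · exact h'
          · exact absurd (c.injective h') hx
        rw [Equiv.swap_apply_of_ne_of_ne hyx hycx]
        by_contra hy
        have hy1 : ¬ 2 ≤ oexp P y := fun h2 =>
          hy (hfa y ((oexp_eq_iff P).1 (honly y h2).symm))
        have := two_le_ncard_orb P ⟨c, hcP, hy⟩
        rw [ncard_orb_eq] at this
        rcases Nat.eq_zero_or_pos (oexp P y) with h0 | h0
        · rw [h0] at this; simp at this
        · have : y ∈ orb P x := (oexp_eq_iff P).1 (by omega)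
          rw [horb] at this
          rcases this with h' | h'
          · exact hyx h'
          · exact hycx h'
      rw [hcs, Perm.sign_swap (Ne.symm hx)] at hc1
      exact absurd hc1 (by decide)
    rcases centre_on_orbit P hn hcc hzz hzc (hne a (self_mem_orb P a)) with h1 | h1
    · exact Or.inl (this c hcP hc1 h1)
    · right
      have hm := this (c * z) (P.mul_mem hcP hz) (by rw [map_mul, hc1, zorb_even P ha hzz hne hfix, one_mul])
        (fun y hy => by
          rw [Perm.mul_apply, h1 _ ((apply_mem_orb P hz).2 hy)]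
          exact congrFun (congrArg DFunLike.coe hzz) y)
      calc c = c * (z * z) := by rw [hzz, mul_one]
        _ = z := by rw [← mul_assoc, hm, one_mul]
  obtain ⟨c, hc, hc1, hcc⟩ := h.exists_central_mem hcon.1
  obtain ⟨d, hd, hd1, hdc⟩ := h.symm.exists_central_mem hcon.2
  have e1 := (key c (h.le₁ hc).1 (Perm.mem_alternatingGroup.1 (h.le₁ hc).2) hcc).resolve_left hc1
  have e2 := (key d (h.le₂ hd).1 (Perm.mem_alternatingGroup.1 (h.le₂ hd).2) hdc).resolve_left hd1
  apply hc1
  rw [← Subgroup.mem_bot, ← h.disj]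
  exact ⟨hc, by rw [e1, ← e2]; exact hd⟩

/-- An element of the factor centralising the even elements of a big orbit is even on it. -/
theorem even_on_orbit (hn : 6 ≤ Fintype.card Ω) {a : Ω} (ha : 2 ≤ oexp P a) {r : Perm Ω}
    (hr : r ∈ P) (hfix : ∀ y ∉ orb P a, r y = y) (hcomm : ∀ q ∈ Aset P a, q * r = r * q) :
    Perm.sign r = 1 := by
  obtain ⟨z, hz, hzz, hzc, hne, hzfix⟩ := exists_central P (moved_of_big P (by omega : 1 ≤ oexp P a))
  by_contra hodd
  have hrs : Perm.sign r = -1 := (Int.units_eq_one_or _).resolve_left hodd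
  have hcc : ∀ s ∈ P, Perm.sign s = 1 → s * r = r * s := by
    intro s hs _
    have hsinv := invSet_orb P a s hs
    have hrinv := invSet_orb P a r hr
    have hb := rst_orb_mem P hs a
    have hrr : rst r (orb P a) = r := by
      ext y
      by_cases hy : y ∈ orb P a
      · exact rst_of_mem hrinv hy
      · rw [rst_of_not_mem r hy, hfix y hy]
    have hbc : rst s (orb P a) * r = r * rst s (orb P a) := by
      rcases Int.units_eq_one_or (Perm.sign (rst s (orb P a))) with h | h
      · exact hcomm _ ⟨hb, h, fun y hy => rst_of_not_mem s hy⟩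
      · have h2 := hcomm (rst s (orb P a) * r⁻¹) ⟨P.mul_mem hb (P.inv_mem hr),
          by rw [map_mul, map_inv, h, hrs, mul_inv_cancel], fun y hy => by
            rw [Perm.mul_apply]
            conv_lhs => rw [← hfix y hy]
            simp [rst_of_not_mem s hy]⟩
        rw [inv_mul_cancel_right, ← mul_assoc] at h2
        exact (mul_inv_eq_iff_eq_mul.1 h2.symm).symm
    ext y
    rw [Perm.mul_apply, Perm.mul_apply]
    by_cases hy : y ∈ orb P a
    · have := congrFun (congrArg DFunLike.coe hbc) y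
      rw [Perm.mul_apply, Perm.mul_apply, rst_of_mem hsinv hy,
        rst_of_mem hsinv ((hrinv y).2 hy)] at this
      exact this
    · rw [hfix y hy, hfix (s y) (fun h => hy ((hsinv y).1 h))]
  rcases centre_on_orbit P hn hcc hzz hzc (hne a (self_mem_orb P a)) with h | h
  · apply hodd
    have : r = 1 := by
      ext y
      by_cases hy : y ∈ orb P a
      · exact h y hy
      · exact hfix y hy
    rw [this, map_one]
  · apply hodd
    have : r = z := by
      ext y
      by_cases hy : y ∈ orb P a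
      · exact h y hy
      · rw [hfix y hy, hzfix y hy]
    rw [this, zorb_even P ha hzz hne hzfix]

theorem rst_commute_Aset {a : Ω} {s : Perm Ω} (hs : s ∈ P)
    (hcomm : ∀ q ∈ Aset P a, q * s = s * q) :
    ∀ q ∈ Aset P a, q * rst s (orb P a) = rst s (orb P a) * q := by
  intro q hq
  have hsinv := invSet_orb P a s hs
  have hqinv := invSet_orb P a q hq.1
  have hqq : rst q (orb P a) = q := by
    ext y
    by_cases hy : y ∈ orb P a
    · exact rst_of_mem hqinv hy
    · rw [rst_of_not_mem q hy, hq.2.2 y hy]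
  rw [← hqq, ← rst_mul hqinv hsinv, ← rst_mul hsinv hqinv, hcomm q hq]

/-- Indecomposable without orbit of size two and with two big orbits. -/
theorem not_dec_multi (hn : 6 ≤ Fintype.card Ω) (hnoT : ∀ x, oexp P x ≠ 1) {a b : Ω}
    (ha : 2 ≤ oexp P a) (hb : 2 ≤ oexp P b) (hab : oexp P a ≠ oexp P b) (h : IsDec P S₁ S₂) :
    S₁ = ⊥ ∨ S₂ = ⊥ := by
  -- `good₁ x`: the second factor centralises the even elements on the orbit of `x`
  let good : Subgroup (Perm Ω) → Ω → Prop := fun T x => ∀ q ∈ Aset P x, q ∈ T → q = 1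
  have hsmall : ∀ x, ¬ 2 ≤ oexp P x → ∀ g ∈ P, rst g (orb P x) = 1 := by
    intro x hx g hg
    have h0 : oexp P x = 0 := by have := hnoT x; omega
    ext y
    by_cases hy : y ∈ orb P x
    · rw [rst_of_mem (invSet_orb P x g hg) hy]
      have h1 : (orb P x).ncard = 1 := by rw [ncard_orb_eq, h0, pow_zero]
      obtain ⟨w, hw⟩ := Set.ncard_eq_one.1 h1
      have h2 := (apply_mem_orb P hg).2 hy
      rw [hw, Set.mem_singleton_iff] at hy h2
      rw [h2, Perm.one_apply, hy]
    · exact rst_of_not_mem g hy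
  have heven : ∀ {T T' : Subgroup (Perm Ω)}, IsDec P T T' → ∀ x, good T' x → ∀ s ∈ T',
      Perm.sign (rst s (orb P x)) = 1 := by
    intro T T' hd x hx s hs
    by_cases hx2 : 2 ≤ oexp P x
    · exact even_on_orbit hn hx2 (rst_orb_mem P (hd.le₂ hs).1 x) (fun y hy => rst_of_not_mem s hy)
        (rst_commute_Aset (hd.le₂ hs).1 fun q hq => commutes_of_not_meet hd hx q hq s hs)
    · rw [hsmall x hx2 s (hd.le₂ hs).1, map_one]
  by_cases hall : ∀ x, good S₂ x
  · right
    rw [Subgroup.eq_bot_iff_forall]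
    intro s hs
    have hsP := (h.le₂ hs).1
    rw [← Subgroup.mem_bot, ← h.disj]
    refine ⟨mem_of_orbitwise P S₁ hsP fun x => ?_, hs⟩
    by_cases hx2 : 2 ≤ oexp P x
    swap
    · rw [hsmall x hx2 s hsP]; exact S₁.one_mem
    obtain ⟨z, hz, hzz, hzc, hne, hfix⟩ := exists_central P (moved_of_big P (by omega : 1 ≤ oexp P x))
    have hzS := side hn h hx2 (hall x) hzz hzc hne hfix
    set r := rst s (orb P x)
    have hrA : r ∈ Aset P x :=
      ⟨rst_orb_mem P hsP x, heven h x (hall x) s hs, fun y hy => rst_of_not_mem s hy⟩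
    have hcc : ∀ g ∈ P, Perm.sign g = 1 → g * r = r * g := by
      intro g hg hg1
      obtain ⟨u, hu, v, hv, rfl⟩ := h.mem g hg hg1
      have hv' : v * r = r * v := (commutes_of_not_meet h (hall x) r hrA v hv).symm
      have hu' : u * r = r * u := by
        have hinvu := invSet_orb P x u (h.le₁ hu).1
        have hinvs := invSet_orb P x s hsP
        ext y
        rw [Perm.mul_apply, Perm.mul_apply]
        by_cases hy : y ∈ orb P x
        · rw [rst_of_mem hinvs hy, rst_of_mem hinvs ((hinvu y).2 hy)]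
          exact congrFun (congrArg DFunLike.coe (h.comm u hu s hs)) y
        · rw [rst_of_not_mem s hy, rst_of_not_mem s (fun h' => hy ((hinvu y).1 h'))]
      rw [mul_assoc, hv', ← mul_assoc, hu', mul_assoc]
    rcases centre_on_orbit P hn hcc hzz hzc (hne x (self_mem_orb P x)) with h1 | h1
    · have : r = 1 := by
        ext y
        by_cases hy : y ∈ orb P x
        · exact h1 y hy
        · exact rst_of_not_mem s hy
      rw [this]; exact S₁.one_mem
    · have : r = z := by
        ext y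
        by_cases hy : y ∈ orb P x
        · exact h1 y hy
        · rw [hfix y hy]; exact rst_of_not_mem s hy
      rw [this]; exact hzS
  push Not at hall
  obtain ⟨x₂, hx₂⟩ := hall
  have hgood : ∀ x, ¬ good S₂ x → 2 ≤ oexp P x ∧ good S₁ x := by
    intro x hx
    have hx2 : 2 ≤ oexp P x := by
      by_contra h2
      apply hx
      intro q hq _
      have := hsmall x h2 q hq.1
      ext y
      by_cases hy : y ∈ orb P x
      · have h' := congrFun (congrArg DFunLike.coe this) y
        rwa [rst_of_mem (invSet_orb P x q hq.1) hy] at h'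
      · exact hq.2.2 y hy
    exact ⟨hx2, (side_or hn h hx2).resolve_left hx⟩
  by_cases hone : ∀ x, 2 ≤ oexp P x → ¬ good S₂ x
  · left
    rw [Subgroup.eq_bot_iff_forall]
    intro s hs
    have hsP := (h.le₁ hs).1
    rw [← Subgroup.mem_bot, ← h.disj]
    refine ⟨hs, mem_of_orbitwise P S₂ hsP fun x => ?_⟩
    by_cases hx2 : 2 ≤ oexp P x
    swap
    · rw [hsmall x hx2 s hsP]; exact S₂.one_mem
    have hg1 := (hgood x (hone x hx2)).2
    obtain ⟨z, hz, hzz, hzc, hne, hfix⟩ := exists_central P (moved_of_big P (by omega : 1 ≤ oexp P x))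
    have hzS := side hn h.symm hx2 hg1 hzz hzc hne hfix
    set r := rst s (orb P x)
    have hrA : r ∈ Aset P x :=
      ⟨rst_orb_mem P hsP x, heven h.symm x hg1 s hs, fun y hy => rst_of_not_mem s hy⟩
    have hcc : ∀ g ∈ P, Perm.sign g = 1 → g * r = r * g := by
      intro g hg hg1'
      obtain ⟨u, hu, v, hv, rfl⟩ := h.mem g hg hg1'
      have hu' : u * r = r * u := (commutes_of_not_meet h.symm hg1 r hrA u hu).symm
      have hv' : v * r = r * v := by
        have hinvv := invSet_orb P x v (h.le₂ hv).1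
        have hinvs := invSet_orb P x s hsP
        ext y
        rw [Perm.mul_apply, Perm.mul_apply]
        by_cases hy : y ∈ orb P x
        · rw [rst_of_mem hinvs hy, rst_of_mem hinvs ((hinvv y).2 hy)]
          exact (congrFun (congrArg DFunLike.coe (h.comm s hs v hv)) y).symm
        · rw [rst_of_not_mem s hy, rst_of_not_mem s (fun h' => hy ((hinvv y).1 h'))]
      rw [mul_assoc, hv', ← mul_assoc, hu', mul_assoc]
    rcases centre_on_orbit P hn hcc hzz hzc (hne x (self_mem_orb P x)) with h1 | h1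
    · have : r = 1 := by
        ext y
        by_cases hy : y ∈ orb P x
        · exact h1 y hy
        · exact rst_of_not_mem s hy
      rw [this]; exact S₂.one_mem
    · have : r = z := by
        ext y
        by_cases hy : y ∈ orb P x
        · exact h1 y hy
        · rw [hfix y hy]; exact rst_of_not_mem s hy
      rw [this]; exact hzS
  push Not at hone
  obtain ⟨x₁, hx₁, hx₁g⟩ := hone
  exfalso
  obtain ⟨hx₂2, -⟩ := hgood x₂ hx₂
  set U : Set Ω := {y | ∀ q ∈ Aset P y, q ∈ S₂ → q = 1} with hU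
  have hinvU : InvSet P U := fun g hg y => by
    have : orb P (g y) = orb P y := orb_eq_of_mem P ⟨g, hg, rfl⟩
    simp only [hU, Set.mem_setOf_eq, Aset, this]
  have hinvUc : InvSet P Uᶜ := fun g hg y => not_congr (hinvU g hg y)
  obtain ⟨y₁, hy₁, hs₁⟩ := exists_swap_mem P (moved_of_big P (by omega : 1 ≤ oexp P x₁))
  obtain ⟨y₂, hy₂, hs₂⟩ := exists_swap_mem P (moved_of_big P (by omega : 1 ≤ oexp P x₂))
  have hy₁U : y₁ ∈ U := by
    have := (hinvU _ hs₁ x₁).2 hx₁g
    rwa [Equiv.swap_apply_left] at this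
  have hy₂U : y₂ ∉ U := by
    have := (hinvUc _ hs₂ x₂).2 hx₂
    rwa [Equiv.swap_apply_left] at this
  set g := Equiv.swap x₁ y₁ * Equiv.swap x₂ y₂ with hgdef
  obtain ⟨u, hu, v, hv, huv⟩ := h.mem g (P.mul_mem hs₁ hs₂)
    (by simp [hgdef, Perm.sign_swap hy₁.symm, Perm.sign_swap hy₂.symm])
  have huP := (h.le₁ hu).1
  have hvP := (h.le₂ hv).1
  have hgU : rst g U = Equiv.swap x₁ y₁ := by
    ext y
    by_cases hy : y ∈ U
    · rw [rst_of_mem (hinvU g (P.mul_mem hs₁ hs₂)) hy, hgdef, Perm.mul_apply,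
        Equiv.swap_apply_of_ne_of_ne (a := x₂) (b := y₂) (fun e => hx₂ (e ▸ hy))
          (fun e => hy₂U (e ▸ hy))]
    · rw [rst_of_not_mem g hy, Equiv.swap_apply_of_ne_of_ne (fun e : y = x₁ => hy (e ▸ hx₁g))
        (fun e : y = y₁ => hy (e ▸ hy₁U))]
  have hvU : rst v U ∈ alternatingGroup Ω :=
    rst_mem_of_orbitwise P _ hvP U hinvU fun x hx =>
      Perm.mem_alternatingGroup.2 (heven h x hx v hv)
  have huUc : rst u Uᶜ ∈ alternatingGroup Ω :=
    rst_mem_of_orbitwise P _ huP Uᶜ hinvUc fun x hx =>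
      Perm.mem_alternatingGroup.2 (heven h.symm x (hgood x hx).2 u hu)
  rw [Perm.mem_alternatingGroup] at hvU huUc
  have e1 : Perm.sign (rst u U) = -1 := by
    have := congrArg Perm.sign (rst_mul (hinvU u huP) (hinvU v hvP))
    rw [huv, hgU, Perm.sign_swap hy₁.symm, map_mul, hvU, mul_one] at this
    exact this.symm
  have e2 := congrArg Perm.sign (rst_mul_compl (g := u) (hinvU u huP))
  rw [map_mul, e1, huUc, Perm.mem_alternatingGroup.1 (h.le₁ hu).2] at e2
  exact absurd e2 (by decide)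

/-- The decomposition when there is an orbit of size two and two bigger ones. -/
theorem exists_dec {t a b : Ω} (ht : oexp P t = 1) (ha : 2 ≤ oexp P a) (hb : 2 ≤ oexp P b)
    (hab : oexp P a ≠ oexp P b) :
    ∃ T₁ T₂ : Subgroup (Perm Ω), IsDec P T₁ T₂ ∧ T₁ ≠ ⊥ ∧ T₂ ≠ ⊥ := by
  obtain ⟨t', ht', hst⟩ := exists_swap_mem P (moved_of_big P (by omega : 1 ≤ oexp P t))
  set s := Equiv.swap t t'
  have horb : orb P t = {t, t'} := by
    refine (Set.eq_of_subset_of_ncard_le ?_ ?_ (Set.toFinite _)).symm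
    · rintro y (rfl | rfl)
      · exact self_mem_orb P _
      · exact swap_mem_orb P hst
    · rw [ncard_orb_eq, ht, Set.ncard_pair ht'.symm]; norm_num
  have hne_t : ∀ {x y : Ω}, oexp P x ≠ oexp P y → y ∉ orb P x := fun h hy =>
    h ((oexp_eq_iff P).2 hy)
  have hOT : ∀ y ∈ orb P t, y ∉ orb P a := fun y hy hy' => by
    have h1 := (oexp_eq_iff P).2 hy
    have h2 := (oexp_eq_iff P).2 hy'
    omega
  let T₁ : Subgroup (Perm Ω) :=
    { carrier := {g | g ∈ P ∧ Perm.sign g = 1 ∧ ∀ y, y ∉ orb P a → y ∉ orb P t → g y = y}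
      one_mem' := ⟨P.one_mem, map_one _, fun _ _ _ => rfl⟩
      mul_mem' := fun {g h} hg hh => ⟨P.mul_mem hg.1 hh.1, by rw [map_mul, hg.2.1, hh.2.1, one_mul],
        fun y h1 h2 => by rw [Perm.mul_apply, hh.2.2 y h1 h2, hg.2.2 y h1 h2]⟩
      inv_mem' := fun {g} hg => ⟨P.inv_mem hg.1, by rw [map_inv, hg.2.1, inv_one],
        fun y h1 h2 => by conv_lhs => rw [← hg.2.2 y h1 h2]
                          simp⟩ }
  let T₂ : Subgroup (Perm Ω) :=
    { carrier := {g | g ∈ P ∧ Perm.sign g = 1 ∧ ∀ y, y ∈ orb P a → g y = y}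
      one_mem' := ⟨P.one_mem, map_one _, fun _ _ => rfl⟩
      mul_mem' := fun {g h} hg hh => ⟨P.mul_mem hg.1 hh.1, by rw [map_mul, hg.2.1, hh.2.1, one_mul],
        fun y h1 => by rw [Perm.mul_apply, hh.2.2 y h1, hg.2.2 y h1]⟩
      inv_mem' := fun {g} hg => ⟨P.inv_mem hg.1, by rw [map_inv, hg.2.1, inv_one],
        fun y h1 => by conv_lhs => rw [← hg.2.2 y h1]
                       simp⟩ }
  have hT : ∀ g ∈ P, ∀ y ∈ orb P t, g y = y ∨ g y = s y := by
    intro g hg y hy
    have h1 := (apply_mem_orb P hg).2 hy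
    rw [horb] at hy h1
    rcases hy with rfl | rfl <;> rcases h1 with h | h <;> simp_all [s]
  have hT' : ∀ g ∈ P, (∀ y ∈ orb P t, g y = y) ∨ (∀ y ∈ orb P t, g y = s y) := by
    intro g hg
    have hs1 : s t = t' := Equiv.swap_apply_left t t'
    have hs2 : s t' = t := Equiv.swap_apply_right t t'
    have h2 := hT g hg t' (swap_mem_orb P hst)
    rcases hT g hg t (self_mem_orb P t) with h | h
    · left
      intro y hy
      rw [horb] at hy
      rcases hy with rfl | rfl
      · exact h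
      · exact h2.resolve_right (fun h' => ht' (g.injective (by rw [h', hs2, h])))
    · right
      intro y hy
      rw [horb] at hy
      rcases hy with rfl | rfl
      · exact h
      · exact h2.resolve_left (fun h' => ht' (g.injective (by rw [h', h, hs1])))
  refine ⟨T₁, T₂, ⟨fun g hg => ⟨hg.1, Perm.mem_alternatingGroup.2 hg.2.1⟩,
    fun g hg => ⟨hg.1, Perm.mem_alternatingGroup.2 hg.2.1⟩, ?_, ?_, ?_⟩, ?_, ?_⟩
  · intro g hg h hh
    ext y
    rw [Perm.mul_apply, Perm.mul_apply]
    by_cases hya : y ∈ orb P a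
    · rw [hh.2.2 y hya, hh.2.2 _ ((apply_mem_orb P hg.1).2 hya)]
    by_cases hyt : y ∈ orb P t
    · have hsy : s y ∈ orb P t := (apply_mem_orb P hst).2 hyt
      rcases hT' g hg.1 with h1 | h1 <;> rcases hT' h hh.1 with h2 | h2 <;>
        simp only [h1 y hyt, h2 y hyt, h1 (s y) hsy, h2 (s y) hsy]
    · rw [hg.2.2 y hya hyt, hg.2.2 _ (fun h' => hya ((apply_mem_orb P hh.1).1 h'))
        (fun h' => hyt ((apply_mem_orb P hh.1).1 h'))]
  · rw [Subgroup.eq_bot_iff_forall]
    rintro g ⟨h1, h2⟩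
    have hfix : ∀ y ∉ orb P t, g y = y := fun y hy => by
      by_cases hya : y ∈ orb P a
      · exact h2.2.2 y hya
      · exact h1.2.2 y hya hy
    rcases hT g h1.1 t (self_mem_orb P t) with h | h
    · ext y
      by_cases hy : y ∈ orb P t
      · rw [horb] at hy
        rcases hy with rfl | rfl
        · exact h
        · rcases hT g h1.1 _ (swap_mem_orb P hst) with h' | h'
          · exact h'
          · exfalso
            rw [Equiv.swap_apply_right] at h'
            exact ht' (g.injective (h'.trans h.symm))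
      · exact hfix y hy
    · exfalso
      have : g = s := by
        ext y
        by_cases hy : y ∈ orb P t
        · rw [horb] at hy
          rcases hy with rfl | rfl
          · exact h
          · rcases hT g h1.1 _ (swap_mem_orb P hst) with h' | h'
            · exfalso
              rw [Equiv.swap_apply_left] at h
              exact ht' (g.injective (h'.trans h.symm))
            · exact h'
        · rw [hfix y hy]
          refine (Equiv.swap_apply_of_ne_of_ne ?_ ?_).symm
          · rintro rfl; exact hy (self_mem_orb P y)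
          · rintro rfl; exact hy (swap_mem_orb P hst)
      have hs1 := h1.2.1
      rw [this, Perm.sign_swap ht'.symm] at hs1
      exact absurd hs1 (by decide)
  · intro g hg hg1
    have hr := rst_orb_mem P hg a
    have hinv := invSet_orb P a g hg
    obtain ⟨u, huP, hu1, hufix, huO⟩ : ∃ u ∈ P, Perm.sign u = 1 ∧
        (∀ y, y ∉ orb P a → y ∉ orb P t → u y = y) ∧ ∀ y ∈ orb P a, u y = g y := by
      rcases Int.units_eq_one_or (Perm.sign (rst g (orb P a))) with h | h
      · exact ⟨_, hr, h, fun y h1 _ => rst_of_not_mem g h1, fun y hy => rst_of_mem hinv hy⟩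
      · refine ⟨rst g (orb P a) * s, P.mul_mem hr hst, ?_, fun y h1 h2 => ?_, fun y hy => ?_⟩
        · rw [map_mul, h, Perm.sign_swap ht'.symm]; rfl
        · rw [Perm.mul_apply, Equiv.swap_apply_of_ne_of_ne, rst_of_not_mem g h1]
          · rintro rfl; exact h2 (self_mem_orb P y)
          · rintro rfl; exact h2 (swap_mem_orb P hst)
        · rw [Perm.mul_apply, Equiv.swap_apply_of_ne_of_ne, rst_of_mem hinv hy]
          · rintro rfl; exact hOT y (self_mem_orb P y) hy
          · intro e; exact hOT t' (swap_mem_orb P hst) (e ▸ hy)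
    refine ⟨u, ⟨huP, hu1, hufix⟩, u⁻¹ * g,
      ⟨P.mul_mem (P.inv_mem huP) hg, by rw [map_mul, map_inv, hu1, hg1]; simp,
        fun y hy => by rw [Perm.mul_apply, ← huO y hy]; simp⟩, mul_inv_cancel_left u g⟩
  · intro hbot
    obtain ⟨z, hz, hzz, hzc, hne, hfix⟩ :=
      exists_central P (moved_of_big P (by omega : 1 ≤ oexp P a))
    have : z ∈ T₁ := ⟨hz, zorb_even P ha hzz hne hfix, fun y h1 _ => hfix y h1⟩
    rw [hbot, Subgroup.mem_bot] at this
    exact hne a (self_mem_orb P a) (by rw [this]; rfl)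
  · intro hbot
    obtain ⟨z, hz, hzz, hzc, hne, hfix⟩ :=
      exists_central P (moved_of_big P (by omega : 1 ≤ oexp P b))
    have : z ∈ T₂ := ⟨hz, zorb_even P hb hzz hne hfix, fun y h1 => hfix y (fun h' => hab (by
      rw [(oexp_eq_iff P).2 h1, (oexp_eq_iff P).2 h']))⟩
    rw [hbot, Subgroup.mem_bot] at this
    exact hne b (self_mem_orb P b) (by rw [this]; rfl)

end Cfsg.Agent.Lib.Alt.Decomp
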