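/-
Overgroups of Sylow 2-subgroups in symmetric and alternating groups.
-/
import Cfsg.Agent.Lib.Alt.AltSylow
import Mathlib.GroupTheory.GroupAction.Jordan
import Mathlib.GroupTheory.SpecificGroups.Alternating.Simple

set_option autoImplicit false
set_option linter.unusedSectionVars false

open Equiv MulAction
open scoped Pointwise

namespace Cfsg.Agent.Lib.Alt

variable {Ω : Type*} [Fintype Ω] [DecidableEq Ω]

/-- All three-cycles on `U` lie in `M`. -/
def ThreeIn (M : Subgroup (Perm Ω)) (U : Set Ω) : Prop :=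
  ∀ a ∈ U, ∀ b ∈ U, ∀ c ∈ U, a ≠ b → a ≠ c → b ≠ c → Equiv.swap a b * Equiv.swap a c ∈ M

theorem threeCycle_apply {a b c : Ω} (hac : a ≠ c) (hbc : b ≠ c) :
    (Equiv.swap a b * Equiv.swap a c) a = c := by
  rw [Perm.mul_apply, Equiv.swap_apply_left, Equiv.swap_apply_of_ne_of_ne hac.symm hbc.symm]

theorem threeCycle_apply_mid {a b c : Ω} (hab : a ≠ b) (hbc : b ≠ c) :
    (Equiv.swap a b * Equiv.swap a c) b = a := by
  rw [Perm.mul_apply, Equiv.swap_apply_of_ne_of_ne hab.symm hbc, Equiv.swap_apply_right]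

theorem threeCycle_apply_other {a b c v : Ω} (ha : v ≠ a) (hb : v ≠ b) (hc : v ≠ c) :
    (Equiv.swap a b * Equiv.swap a c) v = v := by
  rw [Perm.mul_apply, Equiv.swap_apply_of_ne_of_ne ha hc, Equiv.swap_apply_of_ne_of_ne ha hb]

theorem exists_third {U : Set Ω} (hU : 3 ≤ U.ncard) (a c : Ω) : ∃ b ∈ U, b ≠ a ∧ b ≠ c := by
  by_contra h
  push Not at h
  have hsub : U ⊆ {a, c} := fun b hb => by
    rcases eq_or_ne b a with rfl | hba
    · exact Or.inl rfl
    · exact Or.inr (h b hb hba)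
  have := Set.ncard_le_ncard hsub (Set.toFinite _)
  have h2 : ({a, c} : Set Ω).ncard ≤ 2 := by
    refine (Set.ncard_insert_le _ _).trans ?_
    rw [Set.ncard_singleton]
  omega

theorem threeIn_connected {M : Subgroup (Perm Ω)} {U : Set Ω} (h : ThreeIn M U) (hU : 3 ≤ U.ncard)
    {a c : Ω} (ha : a ∈ U) (hc : c ∈ U) : ∃ g ∈ M, g a = c := by
  rcases eq_or_ne a c with rfl | hac
  · exact ⟨1, M.one_mem, rfl⟩
  · obtain ⟨b, hb, hba, hbc⟩ := exists_third hU a c
    exact ⟨_, h a ha b hb c hc hba.symm hac hbc, threeCycle_apply hac hbc⟩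

theorem block_maps {M : Subgroup (Perm Ω)} {B : Set Ω} (hB : IsBlock ↥M B) {g : Perm Ω}
    (hg : g ∈ M) {x : Ω} (hx : x ∈ B) (hgx : g x ∈ B) : ∀ y ∈ B, g y ∈ B := by
  intro y hy
  have h1 : g x ∈ (⟨g, hg⟩ : ↥M) • B := Set.smul_mem_smul_set (a := (⟨g, hg⟩ : ↥M)) hx
  rcases isBlock_iff_smul_eq_or_disjoint.1 hB ⟨g, hg⟩ with h | h
  · rw [← h]
    exact Set.smul_mem_smul_set (a := (⟨g, hg⟩ : ↥M)) hy
  · exact absurd hgx (Set.disjoint_left.1 h h1)

theorem block_contains {M : Subgroup (Perm Ω)} {U : Set Ω} (hU : 3 ≤ U.ncard) (h : ThreeIn M U)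
    {B : Set Ω} (hB : IsBlock ↥M B) (hBnt : B.Nontrivial) {a : Ω} (haU : a ∈ U) (haB : a ∈ B) :
    U ⊆ B := by
  obtain ⟨b', hb'B, hb'a⟩ := hBnt.exists_ne a
  by_cases hb'U : b' ∈ U
  · intro c hc
    rcases eq_or_ne c a with rfl | hca
    · exact haB
    rcases eq_or_ne c b' with rfl | hcb
    · exact hb'B
    -- the cycle sends `b'` to `a` and `a` to `c`
    have hg := h a haU b' hb'U c hc hb'a.symm hca.symm hcb.symm
    have := block_maps hB hg hb'B (by rw [threeCycle_apply_mid hb'a.symm hcb.symm]; exact haB) a haB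
    rwa [threeCycle_apply hca.symm hcb.symm] at this
  · -- otherwise the cycle fixes `b'` and moves `a`
    intro c hc
    rcases eq_or_ne c a with rfl | hca
    · exact haB
    obtain ⟨d, hd, hda, hdc⟩ := exists_third hU a c
    have hg := h a haU d hd c hc hda.symm hca.symm hdc
    have hfix : (Equiv.swap a d * Equiv.swap a c) b' = b' :=
      threeCycle_apply_other (fun e => hb'U (e ▸ haU)) (fun e => hb'U (e ▸ hd)) (fun e => hb'U (e ▸ hc))
    have := block_maps hB hg hb'B (by rw [hfix]; exact hb'B) a haB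
    rwa [threeCycle_apply hca.symm hdc] at this

/-- A transitive group with all three-cycles on two overlapping sets covering more than half of the
points contains the alternating group. -/
theorem alt_le_of_threeIn {M : Subgroup (Perm Ω)} [IsPretransitive ↥M Ω] {U V : Set Ω}
    (hU : 3 ≤ U.ncard) (hV : 3 ≤ V.ncard) (hMU : ThreeIn M U) (hMV : ThreeIn M V)
    {a : Ω} (haU : a ∈ U) (haV : a ∈ V) (hbig : Fintype.card Ω < 2 * (U ∪ V).ncard) :
    alternatingGroup Ω ≤ M := by
  have hprim : IsPreprimitive ↥M Ω := by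
    refine IsPreprimitive.of_isTrivialBlock_base a (fun {B} haB hB => ?_)
    rcases B.subsingleton_or_nontrivial with hs | hnt
    · exact Or.inl hs
    · right
      have hsub : U ∪ V ⊆ B :=
        Set.union_subset (block_contains hU hMU hB hnt haU haB) (block_contains hV hMV hB hnt haV haB)
      have h1 := Set.ncard_le_ncard hsub (Set.toFinite _)
      obtain ⟨k, hk⟩ := hB.ncard_dvd_card ⟨a, haB⟩
      apply Set.eq_of_subset_of_ncard_le (Set.subset_univ _) _ (Set.toFinite _)
      rw [Set.ncard_univ]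
      rw [← Nat.card_eq_fintype_card] at hbig
      rcases k with _ | _ | k
      · have : 0 < Nat.card Ω := Nat.card_pos_iff.2 ⟨⟨a⟩, inferInstance⟩
        omega
      · omega
      · exfalso
        have : B.ncard * 2 ≤ B.ncard * (k + 1 + 1) := Nat.mul_le_mul_left _ (by omega)
        omega
  obtain ⟨b, hb, hba, -⟩ := exists_third hU a a
  obtain ⟨c, hc, hca, hcb⟩ := exists_third hU a b
  exact Perm.alternatingGroup_le_of_isPreprimitive_of_isThreeCycle_mem hprim
    (Perm.isThreeCycle_swap_mul_swap_same hba.symm hca.symm hcb.symm)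
    (hMU a haU b hb c hc hba.symm hca.symm hcb.symm)

variable (P : Sylow 2 (Perm Ω))

/-- The stabilizer of the set of transpositions of `P`. -/
def pairStab : Subgroup (Perm Ω) where
  carrier := {g | ∀ x y, Equiv.swap (g x) (g y) ∈ P ↔ Equiv.swap x y ∈ P}
  one_mem' := fun _ _ => Iff.rfl
  mul_mem' := by
    intro g h hg hh x y
    rw [Perm.mul_apply, Perm.mul_apply, hg, hh]
  inv_mem' := by
    intro g hg x y
    rw [← hg (g⁻¹ x) (g⁻¹ y)]
    simp

theorem le_pairStab : (P : Subgroup (Perm Ω)) ≤ pairStab P := by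
  intro g hg x y
  rw [Equiv.swap_apply_apply]
  constructor
  · intro h
    have := P.mul_mem (P.mul_mem (P.inv_mem hg) h) hg
    rw [show g⁻¹ * (g * Equiv.swap x y * g⁻¹) * g = Equiv.swap x y by group] at this
    exact this
  · intro h
    exact P.mul_mem (P.mul_mem hg h) (P.inv_mem hg)

theorem pairStab_ne_top (hn : 3 ≤ Fintype.card Ω) : pairStab P ≠ ⊤ := by
  intro htop
  obtain ⟨u, v, w, huv, huw, hvw⟩ := Fintype.two_lt_card_iff.1 hn
  have hmv : Moved P u ∨ Moved P v := by
    by_contra h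
    rw [not_or] at h
    exact huv (not_moved_unique P h.1 h.2)
  have hx : ∃ x, Moved P x := hmv.elim (fun h => ⟨u, h⟩) (fun h => ⟨v, h⟩)
  obtain ⟨x, hx⟩ := hx
  obtain ⟨y, hy, hsw⟩ := exists_swap_mem P hx
  obtain ⟨z, -, hzx, hzy⟩ := exists_third (U := (Set.univ : Set Ω))
    (by rw [Set.ncard_univ, Nat.card_eq_fintype_card]; exact hn) x y
  have h := ((htop ▸ Subgroup.mem_top (Equiv.swap y z) : Equiv.swap y z ∈ pairStab P) x y).2 hsw
  rw [Equiv.swap_apply_of_ne_of_ne hy.symm hzx.symm, Equiv.swap_apply_left] at h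
  exact hzy (swap_unique P hzx hy h hsw)

/-- Exchanging two pairs. -/
theorem exchange_mem_pairStab {x y x' y' : Ω} (hy : y ≠ x) (hy' : y' ≠ x')
    (h : Equiv.swap x y ∈ P) (h' : Equiv.swap x' y' ∈ P) (h1 : x' ≠ x) (h2 : x' ≠ y) :
    Equiv.swap x x' * Equiv.swap y y' ∈ pairStab P := by
  have h3 : y' ≠ x := fun e => by
    subst e
    exact h2 (swap_unique P hy hy'.symm h (by rwa [Equiv.swap_comm])).symm
  have h4 : y' ≠ y := fun e => by
    subst e
    exact h1 (swap_unique P hy.symm hy'.symm (by rwa [Equiv.swap_comm]) (by rwa [Equiv.swap_comm])).symm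
  set w := Equiv.swap x x' * Equiv.swap y y' with hw
  have wx : w x = x' := by
    simp [hw, Perm.mul_apply, Equiv.swap_apply_of_ne_of_ne hy.symm h3.symm]
  have wy : w y = y' := by
    simp [hw, Perm.mul_apply, Equiv.swap_apply_of_ne_of_ne h3 hy']
  have wx' : w x' = x := by
    simp [hw, Perm.mul_apply, Equiv.swap_apply_of_ne_of_ne h2 hy'.symm]
  have wy' : w y' = y := by
    simp [hw, Perm.mul_apply, Equiv.swap_apply_of_ne_of_ne hy h2.symm]
  have wo : ∀ z, z ≠ x → z ≠ y → z ≠ x' → z ≠ y' → w z = z := by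
    intro z z1 z2 z3 z4
    simp [hw, Perm.mul_apply, Equiv.swap_apply_of_ne_of_ne z2 z4, Equiv.swap_apply_of_ne_of_ne z1 z3]
  have hfw : ∀ a b, Equiv.swap a b ∈ P → Equiv.swap (w a) (w b) ∈ P := by
    intro a b hab
    rcases eq_or_ne a b with rfl | hne
    · rw [Equiv.swap_self]; exact P.one_mem
    have hba : Equiv.swap b a ∈ P := by rwa [Equiv.swap_comm]
    rcases eq_or_ne a x with rfl | a1
    · rw [swap_unique P hne.symm hy hab h, wx, wy]; exact h'
    rcases eq_or_ne a y with rfl | a2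
    · rw [swap_unique P hne.symm hy.symm hab (by rwa [Equiv.swap_comm]), wx, wy, Equiv.swap_comm]
      exact h'
    rcases eq_or_ne a x' with rfl | a3
    · rw [swap_unique P hne.symm hy' hab h', wx', wy']; exact h
    rcases eq_or_ne a y' with rfl | a4
    · rw [swap_unique P hne.symm hy'.symm hab (by rwa [Equiv.swap_comm]), wx', wy', Equiv.swap_comm]
      exact h
    rcases eq_or_ne b x with rfl | b1
    · exact absurd (swap_unique P hne hy hba h) a2
    rcases eq_or_ne b y with rfl | b2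
    · exact absurd (swap_unique P hne hy.symm hba (by rwa [Equiv.swap_comm])) a1
    rcases eq_or_ne b x' with rfl | b3
    · exact absurd (swap_unique P hne hy' hba h') a4
    rcases eq_or_ne b y' with rfl | b4
    · exact absurd (swap_unique P hne hy'.symm hba (by rwa [Equiv.swap_comm])) a3
    rw [wo a a1 a2 a3 a4, wo b b1 b2 b3 b4]; exact hab
  have hinv : ∀ z, w (w z) = z := by
    intro z
    rcases eq_or_ne z x with rfl | z1
    · rw [wx, wx']
    rcases eq_or_ne z y with rfl | z2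
    · rw [wy, wy']
    rcases eq_or_ne z x' with rfl | z3
    · rw [wx', wx]
    rcases eq_or_ne z y' with rfl | z4
    · rw [wy', wy]
    rw [wo z z1 z2 z3 z4, wo z z1 z2 z3 z4]
  intro a b
  refine ⟨fun hh => ?_, hfw a b⟩
  have := hfw _ _ hh
  rwa [hinv, hinv] at this

theorem exchange_even {x y x' y' : Ω} (h : x ≠ x') (h' : y ≠ y') :
    Equiv.swap x x' * Equiv.swap y y' ∈ alternatingGroup Ω := sign_swap_mul_swap h h'

theorem threeIn_stabilizer {M : Subgroup (Perm Ω)} {U : Set Ω}
    (hM : MulAction.stabilizer (Perm Ω) Uᶜ ⊓ alternatingGroup Ω ≤ M) : ThreeIn M U := by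
  intro a ha b hb c hc hab hac hbc
  apply hM
  refine ⟨?_, sign_swap_mul_swap hab hac⟩
  refine (mem_stabilizer_set' (Set.toFinite _)).2 (fun v hv => ?_)
  rw [Perm.smul_def, threeCycle_apply_other (fun e => hv (by rw [e]; exact ha)) (fun e => hv (by rw [e]; exact hb))
    (fun e => hv (by rw [e]; exact hc))]
  exact hv

theorem le_stabilizer_orb (x : Ω) : (P : Subgroup (Perm Ω)) ≤ MulAction.stabilizer (Perm Ω) (orb P x) := by
  intro p hp
  exact (mem_stabilizer_set' (Set.toFinite _)).2 (fun v hv => (apply_mem_orb P hp).2 hv)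

theorem stabilizer_ne_top_of_proper {U : Set Ω} {a b : Ω} (ha : a ∈ U) (hb : b ∉ U) :
    MulAction.stabilizer (Perm Ω) U ≠ ⊤ := by
  intro h
  have hmem : Equiv.swap a b ∈ MulAction.stabilizer (Perm Ω) U := h ▸ Subgroup.mem_top _
  have := (mem_stabilizer_set' (Set.toFinite _)).1 hmem ha
  rw [Perm.smul_def, Equiv.swap_apply_left] at this
  exact hb this

/-- Two proper overgroups generating at least the alternating group. -/
def TwoOvergroups : Prop :=
  ∃ A B : Subgroup (Perm Ω), (P : Subgroup (Perm Ω)) ≤ A ∧ (P : Subgroup (Perm Ω)) ≤ B ∧ A ≠ ⊤ ∧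
    B ≠ ⊤ ∧ ∀ M : Subgroup (Perm Ω), A ⊓ alternatingGroup Ω ≤ M → B ⊓ alternatingGroup Ω ≤ M →
      alternatingGroup Ω ≤ M

theorem twoOvergroups_of_transitive (h8 : 8 ≤ Fintype.card Ω) (a : Ω)
    (htr : orb P a = Set.univ) : TwoOvergroups P := by
  classical
  have : Fact (Nat.Prime 2) := ⟨Nat.prime_two⟩
  set Pa := MulAction.stabilizer ↥(P : Subgroup (Perm Ω)) a with hPa
  have hidx : Pa.index = Fintype.card Ω := by
    rw [hPa, MulAction.index_stabilizer, ← orb_eq_orbit, htr, Set.ncard_univ, Nat.card_eq_fintype_card]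
  obtain ⟨e, he⟩ := IsPGroup.iff_card.1 P.isPGroup'
  obtain ⟨f, hf⟩ := IsPGroup.iff_card.1 (P.isPGroup'.to_subgroup Pa)
  have hmul := Pa.card_mul_index
  rw [hidx, hf, he] at hmul
  have hfe : f < e := by
    by_contra hh
    have h1 : 2 ^ e ≤ 2 ^ f := Nat.pow_le_pow_right (by norm_num) (by omega)
    have h2 : 2 ^ f * 8 ≤ 2 ^ f * Fintype.card Ω := Nat.mul_le_mul_left _ h8
    have : 0 < 2 ^ f := by positivity
    omega
  obtain ⟨K, hK, hPaK⟩ := Sylow.exists_subgroup_card_pow_prime_le 2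
    (m := e - 1) (by rw [he]; exact pow_dvd_pow 2 (by omega)) Pa hf (by omega)
  have hKidx : K.index = 2 := by
    have := K.card_mul_index
    rw [hK, he] at this
    have h2 : 2 ^ e = 2 ^ (e - 1) * 2 := by rw [← pow_succ]; congr 1; omega
    rw [h2] at this
    exact Nat.eq_of_mul_eq_mul_left (by positivity) this
  have hKn : K.Normal := Subgroup.normal_of_index_eq_two hKidx
  set U : Set Ω := {x | ∃ k ∈ K, ((k : ↥(P : Subgroup (Perm Ω))) : Perm Ω) a = x} with hUdef
  have haU : a ∈ U := ⟨1, K.one_mem, rfl⟩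
  have hmemU : ∀ q : ↥(P : Subgroup (Perm Ω)), ((q : Perm Ω) a ∈ U ↔ q ∈ K) := by
    intro q
    refine ⟨fun ⟨k, hk, hka⟩ => ?_, fun hq => ⟨q, hq, rfl⟩⟩
    have : k⁻¹ * q ∈ Pa := by
      rw [hPa, MulAction.mem_stabilizer_iff, mul_smul, inv_smul_eq_iff]
      exact hka.symm
    simpa using K.mul_mem hk (hPaK this)
  have hUP : ∀ p (hp : p ∈ P), ∀ x, (p x ∈ U ↔ ((⟨p, hp⟩ : ↥(P : Subgroup (Perm Ω))) ∈ K ↔ x ∈ U)) := by
    intro p hp x
    obtain ⟨q, hq, rfl⟩ : x ∈ orb P a := htr ▸ Set.mem_univ x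
    rw [← Perm.mul_apply]
    refine (hmemU (⟨p, hp⟩ * ⟨q, hq⟩)).trans ?_
    rw [Subgroup.mul_mem_iff_of_index_two hKidx]
    exact iff_congr Iff.rfl (hmemU ⟨q, hq⟩).symm
  have hKne : ∃ p, ∃ hp : p ∈ P, (⟨p, hp⟩ : ↥(P : Subgroup (Perm Ω))) ∉ K := by
    by_contra hh
    push Not at hh
    have : K = ⊤ := (Subgroup.eq_top_iff' K).2 (fun q => hh q.1 q.2)
    rw [this, Subgroup.index_top] at hKidx
    omega
  obtain ⟨p₁, hp₁, hp₁K⟩ := hKne
  have hcompl : p₁ '' U = Uᶜ := by
    ext x
    obtain ⟨y, rfl⟩ := p₁.surjective x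
    rw [Function.Injective.mem_set_image p₁.injective, Set.mem_compl_iff, hUP p₁ hp₁ y]
    simp [hp₁K]
  have hUcard : 2 * U.ncard = Fintype.card Ω := by
    rw [← Nat.card_eq_fintype_card, ← Set.ncard_add_ncard_compl U, ← hcompl,
      Set.ncard_image_of_injective _ p₁.injective, two_mul]
  -- pairs do not cross
  have hpairs : ∀ x y, y ≠ x → Equiv.swap x y ∈ P → x ∈ U → y ∈ U := by
    intro x y hy hsw hx
    by_contra hyU
    obtain ⟨z, hz, hzx, hzy⟩ := exists_third (U := U) (by omega) x y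
    have h1 := hUP _ hsw x
    have h2 := hUP _ hsw z
    rw [Equiv.swap_apply_left] at h1
    rw [Equiv.swap_apply_of_ne_of_ne hzx hzy] at h2
    tauto
  -- the stabilizer of the partition
  let A : Subgroup (Perm Ω) :=
    { carrier := {g | (∀ x, g x ∈ U ↔ x ∈ U) ∨ (∀ x, g x ∈ U ↔ x ∉ U)}
      one_mem' := Or.inl fun _ => Iff.rfl
      mul_mem' := by
        rintro g h (hg | hg) (hh | hh)
        · exact Or.inl fun x => by rw [Perm.mul_apply, hg, hh]
        · exact Or.inr fun x => by rw [Perm.mul_apply, hg, hh]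
        · exact Or.inr fun x => by rw [Perm.mul_apply, hg, hh]
        · exact Or.inl fun x => by rw [Perm.mul_apply, hg, hh, not_not]
      inv_mem' := by
        rintro g (hg | hg)
        · exact Or.inl fun x => by
            have := hg (g⁻¹ x); rw [Perm.coe_inv, g.apply_symm_apply] at this; exact this.symm
        · exact Or.inr fun x => by
            have := hg (g⁻¹ x); rw [Perm.coe_inv, g.apply_symm_apply] at this
            rw [Perm.coe_inv]; tauto }
  refine ⟨A, pairStab P, ?_, le_pairStab P, ?_, pairStab_ne_top P (by omega), ?_⟩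
  · intro p hp
    by_cases hpK : (⟨p, hp⟩ : ↥(P : Subgroup (Perm Ω))) ∈ K
    · exact Or.inl fun x => by rw [hUP p hp x]; tauto
    · exact Or.inr fun x => by rw [hUP p hp x]; tauto
  · intro htop
    obtain ⟨b, hb⟩ : (Uᶜ).Nonempty := hcompl ▸ (⟨_, Set.mem_image_of_mem p₁ haU⟩)
    obtain ⟨z, hz, hza, -⟩ := exists_third (U := U) (by omega) a a
    have hzb : z ≠ b := fun e => hb (e ▸ hz)
    rcases (htop ▸ Subgroup.mem_top (Equiv.swap a b) : Equiv.swap a b ∈ A) with h | h
    · exact hb (by simpa using (h a).2 haU)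
    · exact ((h z).1 (by rw [Equiv.swap_apply_of_ne_of_ne hza hzb]; exact hz)) hz
  · intro M hA hB
    have hMU : ThreeIn M U := by
      intro x hx y hy z hz hxy hxz hyz
      refine hA ⟨Or.inl fun v => ?_, sign_swap_mul_swap hxy hxz⟩
      simp only [Perm.mul_apply, Equiv.swap_apply_def]
      split_ifs <;> grind
    have hMU' : ThreeIn M Uᶜ := by
      intro x hx y hy z hz hxy hxz hyz
      refine hA ⟨Or.inl fun v => ?_, sign_swap_mul_swap hxy hxz⟩
      simp only [Perm.mul_apply, Equiv.swap_apply_def]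
      simp only [Set.mem_compl_iff] at hx hy hz
      split_ifs <;> grind
    obtain ⟨b, hb⟩ : (Uᶜ).Nonempty := hcompl ▸ (⟨_, Set.mem_image_of_mem p₁ haU⟩)
    have hma : Moved P a := ⟨p₁, hp₁, fun e => hp₁K ((hmemU ⟨p₁, hp₁⟩).1 (by show p₁ a ∈ U; rw [e]; exact haU))⟩
    obtain ⟨a', ha', hsa⟩ := exists_swap_mem P hma
    obtain ⟨r, hr, hrb⟩ : b ∈ orb P a := htr ▸ Set.mem_univ b
    have hmb : Moved P b := by
      refine ⟨r⁻¹, P.inv_mem hr, fun e => ?_⟩
      have : a = b := by rw [← hrb] at e; simpa using e.trans hrb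
      exact hb (this ▸ haU)
    obtain ⟨b', hb', hsb⟩ := exists_swap_mem P hmb
    have ha'U : a' ∈ U := hpairs a a' ha' hsa haU
    have hb'U : b' ∉ U := fun h => hb (hpairs b' b hb'.symm (by rwa [Equiv.swap_comm]) h)
    have hab : a ≠ b := fun e => hb (e ▸ haU)
    have ha'b' : a' ≠ b' := fun e => hb'U (e ▸ ha'U)
    set w := Equiv.swap a b * Equiv.swap a' b' with hw
    have hwM : w ∈ M := hB ⟨exchange_mem_pairStab P ha' hb' hsa hsb hab.symm
      (fun e => hb (e ▸ ha'U)), exchange_even hab ha'b'⟩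
    have hwa : w a = b := by
      simp [hw, Perm.mul_apply, Equiv.swap_apply_of_ne_of_ne ha'.symm (fun e : a = b' => hb'U (e ▸ haU))]
    have hMV : ThreeIn M (w '' U) := by
      rintro _ ⟨x, hx, rfl⟩ _ ⟨y, hy, rfl⟩ _ ⟨z, hz, rfl⟩ hxy hxz hyz
      have := M.mul_mem (M.mul_mem hwM (hMU x hx y hy z hz (fun e => hxy (e ▸ rfl))
        (fun e => hxz (e ▸ rfl)) (fun e => hyz (e ▸ rfl)))) (M.inv_mem hwM)
      rw [Equiv.swap_apply_apply, Equiv.swap_apply_apply]
      rw [show w * (Equiv.swap x y * Equiv.swap x z) * w⁻¹ =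
        w * Equiv.swap x y * w⁻¹ * (w * Equiv.swap x z * w⁻¹) by group] at this
      exact this
    have htrans : IsPretransitive ↥M Ω := by
      have key : ∀ x, ∃ g ∈ M, g a = x := by
        intro x
        by_cases hx : x ∈ U
        · exact threeIn_connected hMU (by omega) haU hx
        · have hc : 3 ≤ (Uᶜ).ncard := by
            rw [← hcompl, Set.ncard_image_of_injective _ p₁.injective]; omega
          obtain ⟨g, hg, hgb⟩ := threeIn_connected hMU' hc hb hx
          exact ⟨g * w, M.mul_mem hg hwM, by rw [Perm.mul_apply, hwa, hgb]⟩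
      refine ⟨fun x y => ?_⟩
      obtain ⟨g, hg, rfl⟩ := key x
      obtain ⟨h, hh, rfl⟩ := key y
      exact ⟨⟨h * g⁻¹, M.mul_mem hh (M.inv_mem hg)⟩, by simp [Subgroup.smul_def]⟩
    obtain ⟨c, hc, hca, hca'⟩ := exists_third (U := U) (by omega) a a'
    have hwc : w c = c := by
      simp [hw, Perm.mul_apply, Equiv.swap_apply_of_ne_of_ne hca' (fun e : c = b' => hb'U (e ▸ hc)),
        Equiv.swap_apply_of_ne_of_ne hca (fun e : c = b => hb (e ▸ hc))]
    refine alt_le_of_threeIn (U := U) (V := w '' U) (by omega)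
      (by rw [Set.ncard_image_of_injective _ w.injective]; omega) hMU hMV hc ⟨c, hc, hwc⟩ ?_
    have hlt : U.ncard < (U ∪ w '' U).ncard := Set.ncard_lt_ncard
      (Set.ssubset_iff_of_subset Set.subset_union_left |>.2 ⟨b, Or.inr ⟨a, haU, hwa⟩, hb⟩) (Set.toFinite _)
    omega

theorem twoOvergroups_of_intransitive (h5 : 5 ≤ Fintype.card Ω)
    {a : Ω} (hdvd : (orb P a).ncard ∣ Fintype.card Ω) (hne : orb P a ≠ Set.univ)
    (hcase : (orb P a).ncard = 1 → ∀ k : ℕ, Fintype.card Ω ≠ 2 ^ k + 1) : TwoOvergroups P := by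
  classical
  obtain ⟨v, hv⟩ := exists_ncard_orb P a
  have hnd := (stab_index_odd P hdvd).1
  rw [hv] at hdvd hnd
  obtain ⟨m, hm⟩ := hdvd
  have hm1 : m ≠ 1 := by
    rintro rfl
    apply hne
    apply Set.eq_of_subset_of_ncard_le (Set.subset_univ _) _ (Set.toFinite _)
    rw [Set.ncard_univ, Nat.card_eq_fintype_card, hm, hv, mul_one]
  have hm2 : ¬ 2 ∣ m := fun h => hnd (by rw [hm, mul_comm 2]; exact Nat.mul_dvd_mul_left _ h)
  set U : Set Ω := (orb P a)ᶜ with hU
  have hUcard : U.ncard + 2 ^ v = Fintype.card Ω := by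
    rw [← Nat.card_eq_fintype_card, ← Set.ncard_compl_add_ncard (orb P a), hv]
  have hbig : 3 * 2 ^ v ≤ Fintype.card Ω := by
    rw [hm, mul_comm 3]; exact Nat.mul_le_mul_left _ (by omega)
  have hU3 : 3 ≤ U.ncard := by omega
  obtain ⟨b, hb⟩ : U.Nonempty := Set.nonempty_of_ncard_ne_zero (by omega)
  have hbase : ∀ M : Subgroup (Perm Ω), MulAction.stabilizer (Perm Ω) (orb P a) ⊓ alternatingGroup Ω ≤ M →
      (∀ x ∈ orb P a, ∃ u ∈ U, ∃ g ∈ M, g u = x) → alternatingGroup Ω ≤ M := by
    intro M hA hjoin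
    have hMU : ThreeIn M U := threeIn_stabilizer (by rw [hU, compl_compl]; exact hA)
    have key : ∀ x, ∃ g ∈ M, g b = x := by
      intro x
      by_cases hx : x ∈ U
      · exact threeIn_connected hMU hU3 hb hx
      · obtain ⟨u, hu, g, hg, hgu⟩ := hjoin x (by rwa [hU, Set.mem_compl_iff, not_not] at hx)
        obtain ⟨h, hh, hhb⟩ := threeIn_connected hMU hU3 hb hu
        exact ⟨g * h, M.mul_mem hg hh, by rw [Perm.mul_apply, hhb, hgu]⟩
    have : IsPretransitive ↥M Ω := by
      refine ⟨fun x y => ?_⟩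
      obtain ⟨g, hg, rfl⟩ := key x
      obtain ⟨h, hh, rfl⟩ := key y
      exact ⟨⟨h * g⁻¹, M.mul_mem hh (M.inv_mem hg)⟩, by simp [Subgroup.smul_def]⟩
    exact alt_le_of_threeIn hU3 hU3 hMU hMU hb hb (by rw [Set.union_self]; omega)
  refine ⟨MulAction.stabilizer (Perm Ω) (orb P a), ?_⟩
  by_cases hv0 : v = 0
  · -- a fixed point: use the stabilizer of a second orbit
    subst hv0
    have hn2 := hcase (by simpa using hv)
    have hUne : U.ncard ≠ 0 := by omega
    obtain ⟨t, m', hm'odd, hUm⟩ := Nat.exists_eq_two_pow_mul_odd hUne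
    obtain ⟨c, hcU, hcdvd⟩ := exists_mem_small_orbit P t U
      (fun p hp y hy h => hy ((apply_mem_orb P hp).1 h)) (by
        rw [hUm, pow_succ]
        intro h
        have h2 : 2 ∣ m' := Nat.dvd_of_mul_dvd_mul_left (by positivity) h
        exact Nat.not_even_iff_odd.2 hm'odd (even_iff_two_dvd.2 h2))
    have hcsub : orb P c ⊆ U := by
      rintro y ⟨p, hp, rfl⟩ h
      exact hcU ((apply_mem_orb P hp).1 h)
    have hclt : 3 * (orb P c).ncard ≤ U.ncard := by
      obtain ⟨s, hs⟩ := exists_ncard_orb P c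
      have hm'1 : m' ≠ 1 := by
        rintro rfl
        exact hn2 t (by rw [← hUcard, hUm, mul_one, pow_zero])
      have hle : (orb P c).ncard ≤ 2 ^ t := Nat.le_of_dvd (by positivity) hcdvd
      have hm'3 : 3 ≤ m' := by
        rcases hm'odd with ⟨j, rfl⟩; omega
      rw [hUm]
      calc 3 * (orb P c).ncard ≤ 3 * 2 ^ t := Nat.mul_le_mul_left _ hle
        _ ≤ 2 ^ t * m' := by rw [mul_comm 3]; exact Nat.mul_le_mul_left _ hm'3
    have hac : a ∉ orb P c := fun h => hcsub h (self_mem_orb P a)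
    refine ⟨MulAction.stabilizer (Perm Ω) (orb P c), le_stabilizer_orb P a, le_stabilizer_orb P c,
      stabilizer_ne_top_of_proper (self_mem_orb P a) hb, stabilizer_ne_top_of_proper (self_mem_orb P c) hac,
      fun M hA hB => hbase M hA (fun x hx => ?_)⟩
    have hxa : x = a := by
      have h1 : (orb P a).ncard = 1 := by simpa using hv
      obtain ⟨z, hz⟩ := Set.ncard_eq_one.1 h1
      have hx' : x ∈ ({z} : Set Ω) := hz ▸ hx
      have ha' : a ∈ ({z} : Set Ω) := hz ▸ self_mem_orb P a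
      rw [Set.mem_singleton_iff] at hx' ha'
      rw [hx', ha']
    obtain ⟨d, hd, hdc⟩ : ∃ d ∈ U, d ∉ orb P c := by
      by_contra hh
      push Not at hh
      have := Set.ncard_le_ncard (show U ⊆ orb P c from hh) (Set.toFinite _)
      omega
    have hMW : ThreeIn M (orb P c)ᶜ := threeIn_stabilizer (by rw [compl_compl]; exact hB)
    have hW3 : 3 ≤ ((orb P c)ᶜ).ncard := by
      have h1 := Set.ncard_compl_add_ncard (orb P c)
      rw [Nat.card_eq_fintype_card] at h1
      omega
    obtain ⟨g, hg, hgd⟩ := threeIn_connected hMW hW3 hdc (by rw [hxa]; exact hac : x ∈ (orb P c)ᶜ)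
    exact ⟨d, hd, g, hg, hgd⟩
  · -- exchange a pair inside with a pair outside
    have hv2 : 2 ≤ 2 ^ v := by
      calc 2 = 2 ^ 1 := (pow_one 2).symm
        _ ≤ 2 ^ v := Nat.pow_le_pow_right (by norm_num) (by omega)
    refine ⟨pairStab P, le_stabilizer_orb P a, le_pairStab P, stabilizer_ne_top_of_proper (self_mem_orb P a) hb,
      pairStab_ne_top P (by omega), fun M hA hB => hbase M hA (fun x hx => ?_)⟩
    have hmx : Moved P x := by
      by_contra h
      have := orb_of_not_moved P h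
      rw [orb_eq_of_mem P hx] at this
      rw [this, Set.ncard_singleton] at hv
      omega
    obtain ⟨y, hy, hsw⟩ := exists_swap_mem P hmx
    have hyo : y ∈ orb P a := orb_eq_of_mem P hx ▸ swap_mem_orb P hsw
    obtain ⟨x', hx'U, hmx'⟩ : ∃ x' ∈ U, Moved P x' := by
      obtain ⟨c, hc, hcb, -⟩ := exists_third hU3 b b
      by_cases h : Moved P b
      · exact ⟨b, hb, h⟩
      · exact ⟨c, hc, by by_contra h'; exact hcb (not_moved_unique P h' h)⟩
    obtain ⟨y', hy', hsw'⟩ := exists_swap_mem P hmx'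
    have hy'U : y' ∉ orb P a := fun h => hx'U (by
      rw [← orb_eq_of_mem P h]; exact swap_mem_orb P (by rwa [Equiv.swap_comm]))
    have hx'x : x' ≠ x := fun e => hx'U (e ▸ hx)
    have hx'y : x' ≠ y := fun e => hx'U (e ▸ hyo)
    refine ⟨x', hx'U, _, hB ⟨exchange_mem_pairStab P hy hy' hsw hsw' hx'x hx'y,
      exchange_even hx'x.symm (fun e => hy'U (e ▸ hyo))⟩, ?_⟩
    rw [Perm.mul_apply, Equiv.swap_apply_of_ne_of_ne hx'y hy'.symm, Equiv.swap_apply_right]

/-- Degree not of the form `2 ^ k + 1`: two proper overgroups generate. -/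
theorem twoOvergroups (h5 : 5 ≤ Fintype.card Ω) (_h6 : Fintype.card Ω ≠ 6)
    (hk : ∀ k : ℕ, Fintype.card Ω ≠ 2 ^ k + 1) : TwoOvergroups P := by
  have : Nonempty Ω := Fintype.card_pos_iff.1 (by omega)
  obtain ⟨a, ha⟩ := exists_small_orbit P
  by_cases htr : orb P a = Set.univ
  · obtain ⟨v, hv⟩ := exists_ncard_orb P a
    rw [htr, Set.ncard_univ, Nat.card_eq_fintype_card] at hv
    refine twoOvergroups_of_transitive P ?_ a htr
    rcases v with _ | _ | _ | v <;> simp [pow_succ] at hv ⊢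
    all_goals omega
  · exact twoOvergroups_of_intransitive P h5 ha htr (fun _ => hk)

theorem exists_pair_avoiding' (s : Finset Ω) (hs : 2 * s.card + 2 ≤ Fintype.card Ω) :
    ∃ u v, v ≠ u ∧ Equiv.swap u v ∈ P ∧ u ∉ s ∧ v ∉ s := by
  classical
  let partner : Ω → Ω := fun x =>
    if h : ∃ y, y ≠ x ∧ Equiv.swap x y ∈ P then h.choose else x
  have hcard : (s ∪ s.image partner).card + 2 ≤ Fintype.card Ω := by
    have := Finset.card_union_le s (s.image partner)
    have := Finset.card_image_le (s := s) (f := partner)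
    omega
  obtain ⟨u, v, h1, h2, h3, h4⟩ := exists_pair_avoiding P (s ∪ s.image partner) hcard (by
    intro x y hy hsw hx
    have hex : ∃ y', y' ≠ x ∧ Equiv.swap x y' ∈ P := ⟨y, hy, hsw⟩
    rcases Finset.mem_union.1 hx with hx | hx
    · refine Finset.mem_union_right _ (Finset.mem_image.2 ⟨x, hx, ?_⟩)
      simp only [partner, dif_pos hex]
      exact swap_unique P hex.choose_spec.1 hy hex.choose_spec.2 hsw
    · obtain ⟨z, hz, rfl⟩ := Finset.mem_image.1 hx
      by_cases hz' : ∃ y', y' ≠ z ∧ Equiv.swap z y' ∈ P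
      · simp only [partner, dif_pos hz'] at hy hsw ⊢
        have : y = z := swap_unique P hy hz'.choose_spec.1.symm hsw
          (by rw [Equiv.swap_comm]; exact hz'.choose_spec.2)
        exact Finset.mem_union_left _ (this ▸ hz)
      · simp only [partner, dif_neg hz'] at hy hsw
        exact absurd ⟨y, hy, hsw⟩ hz')
  exact ⟨u, v, h1, h2, fun h => h3 (Finset.mem_union_left _ h), fun h => h4 (Finset.mem_union_left _ h)⟩

/-- Degree `2 ^ k + 1`: any overgroup of the even part moving the fixed point contains the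
alternating group. -/
theorem overgroup_of_fixed {k : ℕ} (hk2 : 2 ≤ k) (hn : Fintype.card Ω = 2 ^ k + 1) :
    ∃ a : Ω, (∀ p ∈ P, p a = a) ∧ ∀ M : Subgroup (Perm Ω),
      (P : Subgroup (Perm Ω)) ⊓ alternatingGroup Ω ≤ M → (∃ g ∈ M, g a ≠ a) →
      alternatingGroup Ω ≤ M := by
  classical
  have h4 : 4 ≤ 2 ^ k := by
    calc 4 = 2 ^ 2 := by norm_num
      _ ≤ 2 ^ k := Nat.pow_le_pow_right (by norm_num) hk2
  have : Nonempty Ω := Fintype.card_pos_iff.1 (by omega)
  obtain ⟨a, ha⟩ := exists_small_orbit P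
  obtain ⟨v, hv⟩ := exists_ncard_orb P a
  have hv0 : v = 0 := by
    rw [hv, hn] at ha
    by_contra h
    have h2 : 2 ∣ 2 ^ k + 1 := (dvd_pow_self 2 h).trans ha
    have h2' : 2 ∣ 2 ^ k := dvd_pow_self 2 (by omega)
    omega
  subst hv0
  have hfix : ∀ p ∈ P, p a = a := by
    intro p hp
    obtain ⟨z, hz⟩ := Set.ncard_eq_one.1 (by simpa using hv)
    have h1 : p a ∈ orb P a := ⟨p, hp, rfl⟩
    have h2 := self_mem_orb P a
    rw [hz, Set.mem_singleton_iff] at h1 h2
    rw [h1, ← h2]
  refine ⟨a, hfix, ?_⟩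
  have hmoved : ∀ x, x ≠ a → Moved P x := fun x hx => by
    by_contra h
    exact hx (not_moved_unique P h (fun ⟨p, hp, hpa⟩ => hpa (hfix p hp)))
  -- the remaining points form one orbit
  have hone : ∀ b c, b ≠ a → c ≠ a → c ∈ orb P b := by
    intro b c hb hc
    by_contra hbc
    obtain ⟨i, hi⟩ := exists_ncard_orb P b
    obtain ⟨j, hj⟩ := exists_ncard_orb P c
    have hij : i ≠ j := fun e => hbc (orb_size_injective P (by rw [hi, hj, e]))
    have hdis := disjoint_orb P hbc
    have hsub : orb P b ∪ orb P c ⊆ {a}ᶜ := by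
      rintro y (⟨p, hp, rfl⟩ | ⟨p, hp, rfl⟩) h
      · exact hb (p.injective ((Set.mem_singleton_iff.1 h).trans (hfix p hp).symm))
      · exact hc (p.injective ((Set.mem_singleton_iff.1 h).trans (hfix p hp).symm))
    have hcompl : (({a} : Set Ω)ᶜ).ncard = 2 ^ k := by
      have h1 := Set.ncard_compl_add_ncard ({a} : Set Ω)
      rw [Set.ncard_singleton, Nat.card_eq_fintype_card, hn] at h1
      omega
    -- an orbit of size `2 ^ k` would be everything, so the rest is smaller
    set W : Set Ω := {a}ᶜ \ (orb P b ∪ orb P c) with hW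
    have hsum : W.ncard + (2 ^ i + 2 ^ j) = 2 ^ k := by
      rw [← hi, ← hj, ← Set.ncard_union_eq hdis, hW, Set.ncard_sdiff_add_ncard_of_subset hsub, hcompl]
    -- all orbits inside `{a}ᶜ` have different sizes less than `2 ^ k`
    let S : Finset Ω := ({a}ᶜ : Set Ω).toFinset
    let f : Ω → ℕ := fun x => Nat.log 2 (orb P x).ncard
    have hf : ∀ x, (orb P x).ncard = 2 ^ f x := fun x => by
      obtain ⟨l, hl⟩ := exists_ncard_orb P x
      show (orb P x).ncard = 2 ^ Nat.log 2 (orb P x).ncard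
      rw [hl, Nat.log_pow (by norm_num)]
    have hlt : ∀ x ∈ S, f x < k := by
      intro x hx
      simp only [S, Set.mem_toFinset, Set.mem_compl_iff, Set.mem_singleton_iff] at hx
      have hsubx : orb P x ⊆ {a}ᶜ := by
        rintro y ⟨p, hp, rfl⟩ h
        exact hx (p.injective ((Set.mem_singleton_iff.1 h).trans (hfix p hp).symm))
      by_contra hge
      have hle : 2 ^ k ≤ (orb P x).ncard := by
        rw [hf]; exact Nat.pow_le_pow_right (by norm_num) (by omega)
      have heq : orb P x = {a}ᶜ := Set.eq_of_subset_of_ncard_le hsubx (by omega) (Set.toFinite _)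
      have hbx : b ∈ orb P x := heq ▸ (by simpa using hb)
      have hcx : c ∈ orb P x := heq ▸ (by simpa using hc)
      exact hbc (orb_eq_of_mem P hbx ▸ hcx)
    have hfib : S.card = ∑ l ∈ S.image f, (S.filter fun x => f x = l).card :=
      Finset.card_eq_sum_card_image f S
    have hfibcard : ∀ l ∈ S.image f, (S.filter fun x => f x = l).card = 2 ^ l := by
      intro l hl
      obtain ⟨x, hx, rfl⟩ := Finset.mem_image.1 hl
      rw [← hf x, ← Set.ncard_coe_finset]
      congr 1
      ext y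
      simp only [Finset.coe_filter, Set.mem_ofPred_eq]
      refine ⟨fun hy => orb_size_injective P (by rw [hf, hf, hy.2]), fun hy => ⟨?_, ?_⟩⟩
      · simp only [S, Set.mem_toFinset, Set.mem_compl_iff, Set.mem_singleton_iff] at hx ⊢
        obtain ⟨p, hp, rfl⟩ := hy
        exact fun h => hx (p.injective (h.trans (hfix p hp).symm))
      · apply Nat.pow_right_injective (le_refl 2)
        show 2 ^ f y = 2 ^ f x
        rw [← hf, ← hf, orb_eq_of_mem P hy]
    rw [Finset.sum_congr rfl hfibcard, ← Set.ncard_eq_toFinset_card', hcompl] at hfib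
    have hb2 : ∑ l ∈ S.image f, 2 ^ l < 2 ^ k :=
      Nat.geomSum_lt (le_refl 2) (fun l hl => by
        obtain ⟨x, hx, rfl⟩ := Finset.mem_image.1 hl
        exact hlt x hx)
    exact absurd hfib (ne_of_gt hb2)
  intro M hM hmove
  obtain ⟨g₀, hg₀, hg₀a⟩ := hmove
  have heven : ∀ x y, x ≠ a → y ≠ a → ∃ r ∈ P, r ∈ alternatingGroup Ω ∧ r x = y := by
    intro x y hx hy
    obtain ⟨p, hp, hpx⟩ := hone x y hx hy
    by_cases hpA : p ∈ alternatingGroup Ω
    · exact ⟨p, hp, hpA, hpx⟩
    · obtain ⟨x', hx', hsx⟩ := exists_swap_mem P (hmoved x hx)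
      obtain ⟨u, v, huv, hsuv, hu, hv'⟩ := exists_pair_avoiding P {x, x'}
        (by have := Finset.card_le_two (a := x) (b := x'); omega) (pair_closed P hx' hsx)
      simp only [Finset.mem_insert, Finset.mem_singleton, not_or] at hu hv'
      refine ⟨p * Equiv.swap u v, P.mul_mem hp hsuv, mul_swap_mem_alt hpA huv.symm, ?_⟩
      rw [Perm.mul_apply, Equiv.swap_apply_of_ne_of_ne (Ne.symm hu.1) (Ne.symm hv'.1), hpx]
  have htr : ∀ x, ∃ g ∈ M, g a = x := by
    intro x
    rcases eq_or_ne x a with rfl | hx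
    · exact ⟨1, M.one_mem, rfl⟩
    · obtain ⟨r, hr, hrA, hrx⟩ := heven (g₀ a) x hg₀a hx
      exact ⟨r * g₀, M.mul_mem (hM ⟨hr, hrA⟩) hg₀, by rw [Perm.mul_apply, hrx]⟩
  have htrans : IsPretransitive ↥M Ω := by
    refine ⟨fun x y => ?_⟩
    obtain ⟨g, hg, rfl⟩ := htr x
    obtain ⟨h, hh, rfl⟩ := htr y
    exact ⟨⟨h * g⁻¹, M.mul_mem hh (M.inv_mem hg)⟩, by simp [Subgroup.smul_def]⟩
  -- a three-cycle
  have hkey : 9 ≤ Fintype.card Ω → ∃ t, t.IsThreeCycle ∧ t ∈ M := by
    intro h9
    obtain ⟨b, hb⟩ := Fintype.exists_ne_of_one_lt_card (by omega) a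
    obtain ⟨x₁, hx₁a⟩ : ∃ x, x ≠ a := ⟨b, hb⟩
    obtain ⟨y₁, hy₁, hs₁⟩ := exists_swap_mem P (hmoved x₁ hx₁a)
    obtain ⟨g₁, hg₁, hg₁x⟩ := htr x₁
    have hb₁ : g₁⁻¹ y₁ ≠ a := fun e => hy₁ (by
      have := congrArg g₁ e
      rw [Perm.coe_inv, g₁.apply_symm_apply, hg₁x] at this
      exact this)
    obtain ⟨r, hr, hrA, hrb⟩ := heven (g₁⁻¹ y₁) x₁ hb₁ hx₁a
    set g := r * g₁⁻¹ with hg
    have hgM : g ∈ M := M.mul_mem (hM ⟨hr, hrA⟩) (M.inv_mem hg₁)
    have hgx : g x₁ = a := by
      rw [hg, Perm.mul_apply, ← hg₁x]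
      simp [hfix r hr]
    have hgy : g y₁ = x₁ := by rw [hg, Perm.mul_apply, hrb]
    obtain ⟨p, q, hqp, hspq, hp, hq⟩ := exists_pair_avoiding' P {x₁, y₁, g⁻¹ y₁}
      (by have := Finset.card_le_three (a := x₁) (b := y₁) (c := g⁻¹ y₁); omega)
    simp only [Finset.mem_insert, Finset.mem_singleton, not_or] at hp hq
    have hgp : g p ≠ y₁ := fun e => hp.2.2 (by rw [← e]; simp)
    have hgq : g q ≠ y₁ := fun e => hq.2.2 (by rw [← e]; simp)
    have hgpx : g p ≠ x₁ := fun e => hp.2.1 (g.injective (e.trans hgy.symm))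
    have hgqx : g q ≠ x₁ := fun e => hq.2.1 (g.injective (e.trans hgy.symm))
    have hgpa : g p ≠ a := fun e => hp.1 (g.injective (e.trans hgx.symm))
    have hgqa : g q ≠ a := fun e => hq.1 (g.injective (e.trans hgx.symm))
    obtain ⟨u, v, hvu, hsuv, hu, hv⟩ := exists_pair_avoiding' P {x₁, g p, g q}
      (by have := Finset.card_le_three (a := x₁) (b := g p) (c := g q); omega)
    simp only [Finset.mem_insert, Finset.mem_singleton, not_or] at hu hv
    have huy : u ≠ y₁ := fun e => by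
      subst e
      exact hv.1 (swap_unique P hvu hy₁.symm hsuv (by rwa [Equiv.swap_comm]))
    have hvy : v ≠ y₁ := fun e => by
      subst e
      exact hu.1 (swap_unique P hvu.symm hy₁.symm (by rwa [Equiv.swap_comm]) (by rwa [Equiv.swap_comm]))
    have hua : u ≠ a := fun e => hvu (by
      have := hfix _ hsuv
      rw [← e, Equiv.swap_apply_left] at this
      exact this)
    have hva : v ≠ a := fun e => hvu (by
      have := hfix _ hsuv
      rw [← e, Equiv.swap_apply_right] at this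
      exact this.symm)
    have hy₁a : y₁ ≠ a := fun e => hy₁ (by
      have := hfix _ hs₁
      rw [← e, Equiv.swap_apply_right] at this
      exact this.symm)
    set S1 := Equiv.swap x₁ y₁ with hS1
    set S2 := Equiv.swap u v with hS2
    set T1 := Equiv.swap a x₁ with hT1
    set T2 := Equiv.swap (g p) (g q) with hT2
    have htM : S1 * S2 ∈ M := hM ⟨P.mul_mem hs₁ hsuv, sign_swap_mul_swap hy₁.symm hvu.symm⟩
    have huM : T1 * T2 ∈ M := by
      have h := M.mul_mem (M.mul_mem hgM (hM ⟨P.mul_mem hs₁ hspq,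
        sign_swap_mul_swap hy₁.symm hqp.symm⟩)) (M.inv_mem hgM)
      have e : g * (Equiv.swap x₁ y₁ * Equiv.swap p q) * g⁻¹ = T1 * T2 := by
        rw [hT1, hT2, Equiv.swap_apply_apply, ← hgx]
        conv_rhs => rw [show Equiv.swap (g x₁) x₁ = Equiv.swap (g x₁) (g y₁) by rw [hgy],
          Equiv.swap_apply_apply]
        group
      rwa [e] at h
    have dd : ∀ c d e f : Ω, c ≠ e → c ≠ f → d ≠ e → d ≠ f →
        Commute (Equiv.swap c d) (Equiv.swap e f) := by
      intro c d e f h1 h2 h3 h4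
      apply Perm.Disjoint.commute
      intro z
      by_cases hz : z = c ∨ z = d
      · right
        rcases hz with rfl | rfl
        · exact Equiv.swap_apply_of_ne_of_ne h1 h2
        · exact Equiv.swap_apply_of_ne_of_ne h3 h4
      · left
        rw [not_or] at hz
        exact Equiv.swap_apply_of_ne_of_ne hz.1 hz.2
    have c1 : Commute S1 S2 := dd _ _ _ _ (Ne.symm hu.1) (Ne.symm hv.1) huy.symm hvy.symm
    have c2 : Commute S1 T2 := dd _ _ _ _ hgpx.symm hgqx.symm hgp.symm hgq.symm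
    have c3 : Commute T1 S2 := dd _ _ _ _ hua.symm hva.symm (Ne.symm hu.1) (Ne.symm hv.1)
    have c4 : Commute T1 T2 := dd _ _ _ _ hgpa.symm hgqa.symm hgpx.symm hgqx.symm
    have c5 : Commute S2 T2 := dd _ _ _ _ hu.2.1 hu.2.2 hv.2.1 hv.2.2
    have h22 : ∀ c d : Ω, Equiv.swap c d * Equiv.swap c d = 1 := Equiv.swap_mul_self
    have hsq : (S1 * S2 * (T1 * T2)) * (S1 * S2 * (T1 * T2)) = (S1 * T1) * (S1 * T1) := by
      have e1 : S1 * S2 * (T1 * T2) = (S1 * T1) * (S2 * T2) := by
        rw [mul_assoc, ← mul_assoc S2, ← c3.eq, mul_assoc T1, ← mul_assoc]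
      have cb : Commute (S2 * T2) (S1 * T1) :=
        ((c1.symm.mul_right c3.symm).mul_left (c2.symm.mul_right c4.symm))
      have hb2 : (S2 * T2) * (S2 * T2) = 1 := by
        rw [mul_assoc, ← mul_assoc T2, ← c5.eq, mul_assoc S2 T2 T2, hT2, h22, mul_one, hS2, h22]
      rw [e1, mul_assoc, ← mul_assoc (S2 * T2), cb.eq, mul_assoc (S1 * T1) (S2 * T2), hb2, mul_one]
    refine ⟨_, ?_, (hsq ▸ M.mul_mem (M.mul_mem htM huM) (M.mul_mem htM huM))⟩
    apply Perm.IsThreeCycle.isThreeCycle_sq
    rw [hS1, hT1, Equiv.swap_comm a x₁]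
    exact Perm.isThreeCycle_swap_mul_swap_same hy₁.symm hx₁a hy₁a
  rcases Nat.lt_or_ge (Fintype.card Ω) 9 with hsmall | hbig
  · -- degree five
    have hn5 : Fintype.card Ω = 5 := by
      have hk' : k = 2 := by
        by_contra h
        have : 2 ^ 3 ≤ 2 ^ k := Nat.pow_le_pow_right (by norm_num) (by omega)
        omega
      rw [hn, hk']; norm_num
    have : Nontrivial Ω := Fintype.one_lt_card_iff_nontrivial.1 (by omega)
    have : Fact (Nat.Prime 2) := ⟨Nat.prime_two⟩
    have hcard : Nat.card ↥(alternatingGroup Ω) = 60 := by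
      rw [nat_card_alternatingGroup, Nat.card_eq_fintype_card, hn5]; decide
    let N : Subgroup ↥(alternatingGroup Ω) := M.subgroupOf (alternatingGroup Ω)
    have h5N : 5 ∣ Nat.card ↥M := by
      rw [← hn5, ← Nat.card_eq_fintype_card]
      have e := MulAction.index_stabilizer_of_transitive ↥M a
      rw [← e]
      exact Subgroup.index_dvd_card _
    have hMA : Nat.card ↥M ∣ 2 * Nat.card ↥N := by
      have h1 : N.map (alternatingGroup Ω).subtype = M ⊓ alternatingGroup Ω :=
        Subgroup.subgroupOf_map_subtype _ _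
      have h2 : Nat.card ↥N = Nat.card ↥(M ⊓ alternatingGroup Ω) := by
        rw [← h1, Subgroup.card_map_of_injective Subtype.val_injective]
      have h3 := Subgroup.relIndex_mul_relIndex ⊥ (M ⊓ alternatingGroup Ω) M bot_le inf_le_left
      rw [Subgroup.relIndex_bot_left, Subgroup.relIndex_bot_left] at h3
      rw [← h3, h2, mul_comm 2]
      apply Nat.mul_dvd_mul_left
      rw [Subgroup.inf_relIndex_left]
      exact (Subgroup.relIndex_dvd_index_of_normal _ _).trans (dvd_of_eq alternatingGroup.index_eq_two)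
    have h5' : 5 ∣ Nat.card ↥N :=
      (Nat.Coprime.dvd_of_dvd_mul_left (by norm_num) (h5N.trans hMA))
    have h4N : 4 ∣ Nat.card ↥N := by
      have hT : IsPGroup 2 ↥((P : Subgroup (Perm Ω)).subgroupOf (alternatingGroup Ω)) :=
        P.isPGroup'.comap_of_injective _ Subtype.val_injective
      have hidx : ¬ 2 ∣ ((P : Subgroup (Perm Ω)).subgroupOf (alternatingGroup Ω)).index := by
        intro h
        apply P.not_dvd_index
        have h2 : (P : Subgroup (Perm Ω)).relIndex (alternatingGroup Ω) * 2 =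
            ((P : Subgroup (Perm Ω)) ⊓ alternatingGroup Ω).relIndex (P : Subgroup (Perm Ω)) *
              (P : Subgroup (Perm Ω)).index := by
          rw [Subgroup.relIndex_mul_index inf_le_left, ← Subgroup.inf_relIndex_right,
            ← Subgroup.relIndex_mul_index (inf_le_right : (P : Subgroup (Perm Ω)) ⊓ alternatingGroup Ω ≤ _),
            alternatingGroup.index_eq_two]
        have hdd : ((P : Subgroup (Perm Ω)) ⊓ alternatingGroup Ω).relIndex (P : Subgroup (Perm Ω)) ∣ 2 := by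
          rw [Subgroup.inf_relIndex_left]
          exact (Subgroup.relIndex_dvd_index_of_normal _ _).trans (dvd_of_eq alternatingGroup.index_eq_two)
        have h4 : 2 * 2 ∣ 2 * (P : Subgroup (Perm Ω)).index :=
          (Nat.mul_dvd_mul_right h 2).trans (h2 ▸ Nat.mul_dvd_mul_right hdd _)
        exact Nat.dvd_of_mul_dvd_mul_left (by norm_num) h4
      have hle : ((hT.toSylow hidx : Sylow 2 _) : Subgroup _) ≤ N := fun x hx => hM ⟨hx, x.2⟩
      refine Dvd.dvd.trans ?_ (Subgroup.card_dvd_of_le hle)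
      have := (hT.toSylow hidx).pow_dvd_card_of_pow_dvd_card (n := 2) (by rw [hcard]; norm_num)
      simpa using this
    have hidx : N.index ∣ 3 := by
      have h20 : 20 ∣ Nat.card ↥N := Nat.Coprime.mul_dvd_of_dvd_of_dvd (by norm_num) h4N h5'
      have e := N.card_mul_index
      rw [hcard] at e
      obtain ⟨c, hc⟩ := h20
      rw [hc, mul_assoc] at e
      exact ⟨c, by
        have : c * N.index = 3 := by omega
        rw [mul_comm]; exact this.symm⟩
    have hNtop : N = ⊤ := by
      rcases (Nat.dvd_prime Nat.prime_three).1 hidx with h | h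
      · exact Subgroup.index_eq_one.1 h
      · exfalso
        have hs : IsSimpleGroup ↥(alternatingGroup Ω) :=
          alternatingGroup.isSimpleGroup (by rw [Nat.card_eq_fintype_card]; omega)
        rcases hs.eq_bot_or_eq_top_of_normal N.normalCore inferInstance with hb | ht
        · have hinj : Function.Injective (MulAction.toPermHom ↥(alternatingGroup Ω) (↥(alternatingGroup Ω) ⧸ N)) := by
            rw [← MonoidHom.ker_eq_bot_iff, ← Subgroup.normalCore_eq_ker]; exact hb
          have := Nat.card_le_card_of_injective _ hinj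
          rw [hcard, Nat.card_perm, ← Subgroup.index, h] at this
          simp [Nat.factorial] at this
        · have : N = ⊤ := top_le_iff.1 (ht ▸ N.normalCore_le)
          rw [this, Subgroup.index_top] at h
          omega
    intro x hx
    have : (⟨x, hx⟩ : ↥(alternatingGroup Ω)) ∈ N := hNtop ▸ Subgroup.mem_top _
    exact this
  · obtain ⟨t, ht, htM⟩ := hkey hbig
    have hprim : IsPreprimitive ↥M Ω := by
      refine IsPreprimitive.of_isTrivialBlock_base a (fun {B} haB hB => ?_)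
      rcases B.subsingleton_or_nontrivial with hs | hnt
      · exact Or.inl hs
      · right
        obtain ⟨b, hbB, hba⟩ := hnt.exists_ne a
        refine Set.eq_univ_of_forall (fun x => ?_)
        rcases eq_or_ne x a with rfl | hx
        · exact haB
        · obtain ⟨r, hr, hrA, hrx⟩ := heven b x hba hx
          have := block_maps hB (hM ⟨hr, hrA⟩) haB (by rw [hfix r hr]; exact haB) b hbB
          rwa [hrx] at this
    exact Perm.alternatingGroup_le_of_isPreprimitive_of_isThreeCycle_mem hprim ht htM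

end Cfsg.Agent.Lib.Alt
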